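import Mathlib
import Cfsg.Agent.H20.PxQ
import Cfsg.Agent.H20.Generation
import Cfsg.Agent.H24.PGroupBasic
import Cfsg.Agent.H53.OmegaFaithful
import Cfsg.Agent.H83.Basic

/-!
Coprime action: commutator containment forces centralization.
-/

set_option autoImplicit false

namespace Cfsg.Agent.H74

open Subgroup
open scoped commutatorElement Pointwise

variable {G : Type*} [Group G]

/-- The elements of `D` whose commutators with `B` lie in `N`. -/
def commInto (D N B : Subgroup G) (hDN : D ≤ normalizer (N : Set G)) : Subgroup G where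
  carrier := {y | y ∈ D ∧ ∀ b ∈ B, ⁅y, b⁆ ∈ N}
  one_mem' := ⟨one_mem _, fun b _ => by rw [commutatorElement_one_left]; exact one_mem _⟩
  mul_mem' := fun {y z} hy hz => ⟨mul_mem hy.1 hz.1, fun b hb => by
    have e : ⁅y * z, b⁆ = y * ⁅z, b⁆ * y⁻¹ * ⁅y, b⁆ := by simp only [commutatorElement_def]; group
    rw [e]
    exact mul_mem ((mem_normalizer_iff.mp (hDN hy.1) _).mp (hz.2 b hb)) (hy.2 b hb)⟩
  inv_mem' := fun {y} hy => ⟨inv_mem hy.1, fun b hb => by
    have e : ⁅y⁻¹, b⁆ = y⁻¹ * ⁅y, b⁆⁻¹ * (y⁻¹)⁻¹ := by simp only [commutatorElement_def]; group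
    rw [e]
    exact (mem_normalizer_iff.mp (hDN (inv_mem hy.1)) _).mp (inv_mem (hy.2 b hb))⟩

theorem commutator_le_of_le_commInto {D N B Y : Subgroup G} {h : D ≤ normalizer (N : Set G)}
    (hY : Y ≤ commInto D N B h) : ⁅Y, B⁆ ≤ N :=
  commutator_le.mpr fun y hy b hb => (hY hy).2 b hb

/-- If `[P, B] ≤ [P, A]` for commuting `A` (a `p`-group) and `B` (a `p'`-group) acting on the
`p`-group `P`, then `B` centralizes `P`. -/
theorem commutator_containment [Finite G] {p : ℕ} [Fact p.Prime] {P A B : Subgroup G} (hP : IsPGroup p P)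
    (hA : IsPGroup p A) (hB : ¬ p ∣ Nat.card B) (hnA : A ≤ normalizer (P : Set G))
    (hnB : B ≤ normalizer (P : Set G)) (hAB : A ≤ centralizer (B : Set G))
    (hcomm : ⁅P, B⁆ ≤ ⁅P, A⁆) : ⁅P, B⁆ = ⊥ := by
  set Φ := (frattini P).map P.subtype with hΦ
  have hΦP : Φ ≤ P := map_subtype_le _
  have hPΦ : P ≤ normalizer (Φ : Set G) := H53.le_normalizer_map_characteristic _ le_normalizer
  have hAΦ : A ≤ normalizer (Φ : Set G) := H53.le_normalizer_map_characteristic _ hnA
  have hBΦ : B ≤ normalizer (Φ : Set G) := H53.le_normalizer_map_characteristic _ hnB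
  have hder : ∀ x ∈ P, ∀ y ∈ P, ⁅x, y⁆ ∈ Φ := fun x hx y hy =>
    ⟨⁅(⟨x, hx⟩ : P), ⟨y, hy⟩⁆,
      H24.commutator_le_frattini hP (commutator_mem_commutator (mem_top _) (mem_top _)), rfl⟩
  have hbetween : ∀ X : Subgroup G, Φ ≤ X → X ≤ P → P ≤ normalizer (X : Set G) := fun X h1 h2 => by
    refine le_normalizer_iff.mpr fun g hg x hx => ?_
    have h3 : ⁅g, x⁆ * x ∈ X := mul_mem (h1 (hder g hg x (h2 hx))) hx
    simpa [commutatorElement_def] using h3
  have hco : (Nat.card B).Coprime p := Nat.Coprime.symm ((Fact.out : p.Prime).coprime_iff_not_dvd.mpr hB)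
  have hcop : (Nat.card B).Coprime (Nat.card P) := by
    obtain ⟨k, hk⟩ := hP.exists_card_eq
    rw [hk]; exact hco.pow_right k
  haveI : Group.IsNilpotent P := hP.isNilpotent
  have hPBB : ⁅⁅P, B⁆, B⁆ = ⁅P, B⁆ := H20.commutator_commutator_eq hnB hcop (Or.inr inferInstance)
  have main : ∀ X : Subgroup G, Φ ≤ X → X ≤ P → A ≤ normalizer (X : Set G) →
      B ≤ normalizer (X : Set G) → ⁅X, B⁆ ≤ ⁅X, A⁆ ⊔ Φ → ⁅P, B⁆ ≤ X → ⁅P, B⁆ ≤ Φ := by
    intro X
    induction X using WellFoundedLT.induction with
    | ind X ih =>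
      intro hΦX hXP hAX hBX hXB hPBX
      by_cases hXΦ : X ≤ Φ
      · exact hPBX.trans hXΦ
      set X' := ⁅X, A⁆ ⊔ Φ with hX'
      have hX'X : X' ≤ X := sup_le (H20.commutator_le_of_le_normalizer hAX) hΦX
      have hne : X' ≠ X := by
        intro he
        apply hXΦ
        haveI : Group.IsNilpotent (A ⊔ P : Subgroup G) := (hA.to_sup_of_normal_right' hP hnA).isNilpotent
        obtain ⟨n, hn⟩ := (Subgroup.isNilpotent_iff_lowerCentralSeries (A ⊔ P)).mp inferInstance
        have key : ∀ i, X ≤ (A ⊔ P).lowerCentralSeries i ⊔ Φ := by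
          intro i
          induction i with
          | zero => exact hXP.trans (le_sup_right.trans le_sup_left)
          | succ i ihi =>
            rw [Subgroup.lowerCentralSeries_succ]
            set N := ⁅(A ⊔ P).lowerCentralSeries i, A ⊔ P⁆ ⊔ Φ with hN
            have hSN : A ⊔ P ≤ normalizer (N : Set G) :=
              H83.le_normalizer_sup (normalizer_commutator_ge_right _ _) (sup_le hAΦ hPΦ)
            have hXT : X ≤ commInto (A ⊔ P) N A hSN := by
              refine ihi.trans (sup_le (fun y hy => ⟨?_, fun a ha => ?_⟩) fun y hy => ⟨?_, fun a ha => ?_⟩)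
              · exact Subgroup.lowerCentralSeries_le_self _ i hy
              · exact mem_sup_left (commutator_mem_commutator hy (mem_sup_left ha))
              · exact mem_sup_right (hΦP hy)
              · refine mem_sup_right ?_
                rw [commutatorElement_def, mul_assoc, mul_assoc, ← mul_assoc a]
                exact mul_mem hy ((mem_normalizer_iff.mp (hAΦ ha) _).mp (inv_mem hy))
            calc X = X' := he.symm
              _ ≤ N := sup_le (commutator_le_of_le_commInto hXT) le_sup_right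
        have := key n
        rwa [hn, bot_sup_eq] at this
      have hlt : X' < X := lt_of_le_of_ne hX'X hne
      have hXN : X ≤ normalizer (X' : Set G) :=
        hXP.trans (hbetween X' le_sup_right (hX'X.trans hXP))
      have hAX' : A ≤ normalizer (X' : Set G) := H83.le_normalizer_sup (normalizer_commutator_ge_right _ _) hAΦ
      have hBA : B ≤ normalizer (A : Set G) := (le_centralizer_iff.mp hAB).trans (centralizer_le_normalizer _)
      have hBX' : B ≤ normalizer (X' : Set G) :=
        H83.le_normalizer_sup (H83.le_normalizer_commutator hBX hBA) hBΦ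
      refine ih X' hlt le_sup_right (hX'X.trans hXP) hAX' hBX' ?_ ?_
      · -- `[X', B] ≤ [X', A] Φ`
        set N := ⁅X', A⁆ ⊔ Φ with hN
        have hNX' : N ≤ X' := sup_le (H20.commutator_le_of_le_normalizer hAX') le_sup_right
        have hPN : P ≤ normalizer (N : Set G) := hbetween N le_sup_right (hNX'.trans (hX'X.trans hXP))
        have hT : X' ≤ commInto P N B hPN := by
          refine sup_le (commutator_le.mpr fun x hx a ha => ?_) fun y hy => ⟨hΦP hy, fun b hb => ?_⟩
          · have hxP := hXP hx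
            have hxaP : ⁅x, a⁆ ∈ P := by
              rw [commutatorElement_def, mul_assoc, mul_assoc, ← mul_assoc a]
              exact mul_mem hxP ((mem_normalizer_iff.mp (hnA ha) _).mp (inv_mem hxP))
            refine ⟨hxaP, fun b hb => ?_⟩
            have hc : x⁻¹ * (b * x * b⁻¹) ∈ X' := hXB (by
              have := commutator_mem_commutator (inv_mem hx) hb (H₁ := X) (H₂ := B)
              simpa [commutatorElement_def, mul_assoc] using this)
            set c := x⁻¹ * (b * x * b⁻¹) with hcdef
            have hba : b * a = a * b := mem_centralizer_iff.mp (hAB ha) b hb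
            have h1 : b * ⁅x, a⁆ * b⁻¹ = x * ⁅c, a⁆ * x⁻¹ * ⁅x, a⁆ := by
              have : b * ⁅x, a⁆ * b⁻¹ = ⁅x * c, a⁆ := by
                calc b * ⁅x, a⁆ * b⁻¹ = ⁅b * x * b⁻¹, b * a * b⁻¹⁆ := by
                      simp only [commutatorElement_def]; group
                  _ = ⁅x * c, a⁆ := by rw [hba, mul_inv_cancel_right, hcdef, mul_inv_cancel_left]
              rw [this]
              simp only [commutatorElement_def]
              group
            have h2 : b * ⁅x, a⁆ * b⁻¹ * ⁅x, a⁆⁻¹ ∈ N := by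
              rw [h1, mul_inv_cancel_right]
              exact (mem_normalizer_iff.mp (hPN hxP) _).mp (mem_sup_left (commutator_mem_commutator hc ha))
            have h3 : ⁅⁅x, a⁆, b⁆ = (b * ⁅x, a⁆ * b⁻¹ * ⁅x, a⁆⁻¹)⁻¹ := by
              simp only [commutatorElement_def]; group
            rw [h3]
            exact inv_mem h2
          · refine mem_sup_right ?_
            rw [commutatorElement_def, mul_assoc, mul_assoc, ← mul_assoc b]
            exact mul_mem hy ((mem_normalizer_iff.mp (hBΦ hb) _).mp (inv_mem hy))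
        exact commutator_le_of_le_commInto hT
      · exact hPBB ▸ (commutator_mono hPBX le_rfl).trans hXB
  have hfin := main P hΦP le_rfl hnA hnB (hcomm.trans le_sup_left) (H20.commutator_le_of_le_normalizer hnB)
  rw [commutator_eq_bot_iff_le_centralizer]
  refine le_centralizer_iff.mp (H20.le_centralizer_of_trivial_on_frattini hnB ?_ fun b hb x hx => ?_)
  · exact hcop.coprime_dvd_right (card_subgroup_dvd_card _)
  · refine hfin ?_
    have := commutator_mem_commutator hx hb
    have h := inv_mem this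
    simpa [commutatorElement_def, mul_assoc] using h

/-- A noncyclic abelian `p`-group acting: `[R, U]` centralizes `E`. -/
theorem noncyclic_commutator_centralizes [Finite G] {p : ℕ} [Fact p.Prime] {E U R : Subgroup G} [E.Normal]
    (hE : IsPGroup p E) (hUp : IsPGroup p U) [IsMulCommutative U] (hnc : ¬ IsCyclic U)
    (hcond : (∀ u ∈ U, u ≠ 1 → E ⊓ centralizer (U : Set G) = E ⊓ centralizer ({u} : Set G)) ∨
      (∀ u ∈ U, u ≠ 1 → ⁅E, U⁆ = ⁅E, zpowers u⁆))
    (hR : ¬ p ∣ Nat.card R) (hRU : U ≤ normalizer (R : Set G)) :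
    ⁅R, U⁆ ≤ centralizer (E : Set G) := by
  haveI : (centralizer (E : Set G)).Normal := normal_centralizer
  have hco : (Nat.card R).Coprime p := Nat.Coprime.symm ((Fact.out : p.Prime).coprime_iff_not_dvd.mpr hR)
  have hcop : (Nat.card U).Coprime (Nat.card R) := by
    obtain ⟨k, hk⟩ := hUp.exists_card_eq
    rw [hk]; exact Nat.Coprime.pow_left k hco.symm
  have key : ∀ u ∈ U, u ≠ 1 → ⁅R ⊓ centralizer ({u} : Set G), U⁆ ≤ centralizer (E : Set G) := by
    intro u hu hu1
    set R₀ := R ⊓ centralizer ({u} : Set G) with hR₀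
    have hUR₀ : U ≤ normalizer (R₀ : Set G) := le_normalizer_iff.mpr fun w hw r hr =>
      mem_inf.mpr ⟨(mem_normalizer_iff.mp (hRU hw) r).mp (mem_inf.mp hr).1, by
        refine mem_centralizer_singleton_iff.mpr ?_
        have h1 : Commute r u := mem_centralizer_singleton_iff.mp (mem_inf.mp hr).2
        have h2 : Commute w u := congrArg Subtype.val (mul_comm' (⟨w, hw⟩ : U) ⟨u, hu⟩)
        exact ((h2.mul_left h1).mul_left h2.inv_left).eq⟩
    set R₁ := ⁅R₀, U⁆ with hR₁
    have hR₁₀ : R₁ ≤ R₀ := H20.commutator_le_of_le_normalizer hUR₀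
    have hzu : zpowers u ≤ U := zpowers_le.mpr hu
    have hR₀Z : R₀ ≤ centralizer (zpowers u : Set G) := fun r hr => mem_centralizer_iff.mpr fun x hx => by
      obtain ⟨i, rfl⟩ := hx
      exact ((show Commute r u from mem_centralizer_singleton_iff.mp (mem_inf.mp hr).2).zpow_right i).eq.symm
    have hR₁cop : (Nat.card R₁).Coprime p :=
      hco.coprime_dvd_left (card_dvd_of_le (hR₁₀.trans inf_le_left))
    have hEN : ∀ T : Subgroup G, T ≤ normalizer (E : Set G) := fun T => le_normalizer_of_normal
    rcases hcond with hc | hc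
    · -- equal centralizers
      set D := E ⊓ centralizer (U : Set G) with hD
      have hDu : D = E ⊓ centralizer ({u} : Set G) := hc u hu hu1
      have hR₀D : ⁅D, R₀⁆ ≤ D := H20.commutator_le_of_le_normalizer <| le_normalizer_iff.mpr fun r hr d hd => by
        rw [hDu] at hd ⊢
        refine mem_inf.mpr ⟨(inferInstance : E.Normal).conj_mem d (mem_inf.mp hd).1 r, mem_centralizer_singleton_iff.mpr ?_⟩
        have h1 : Commute r u := mem_centralizer_singleton_iff.mp (mem_inf.mp hr).2
        have h2 : Commute d u := mem_centralizer_singleton_iff.mp (mem_inf.mp hd).2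
        exact ((h1.mul_left h2).mul_left h1.inv_left).eq
      have hDU : ⁅D, U⁆ = ⊥ := commutator_eq_bot_iff_le_centralizer.mpr inf_le_right
      have h3 : ⁅R₁, D⁆ = ⊥ := by
        refine commutator_commutator_eq_bot_of_rotate ?_ ?_
        · rw [commutator_comm U D, hDU, commutator_bot_left]
        · exact le_bot_iff.mp ((commutator_mono hR₀D le_rfl).trans hDU.le)
      refine H20.p_times_q (hUp.to_le hzu) hR₁cop hE (le_centralizer_iff.mp (hR₁₀.trans hR₀Z))
        (hEN _) (hEN _) ?_
      have : E ⊓ centralizer (zpowers u : Set G) ≤ D := by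
        rw [hDu]
        exact inf_le_inf_left E (centralizer_le (by simp))
      exact this.trans (le_centralizer_iff.mp (commutator_eq_bot_iff_le_centralizer.mp h3))
    · -- equal commutators
      set K := ⁅E, U⁆ with hK
      have hKu : K = ⁅E, zpowers u⁆ := hc u hu hu1
      have hEK : E ≤ normalizer (K : Set G) := normalizer_commutator_ge_left E U
      have hUK : U ≤ normalizer (K : Set G) := normalizer_commutator_ge_right E U
      have hR₀K : R₀ ≤ normalizer (K : Set G) := by
        rw [hKu]
        exact H83.le_normalizer_commutator (hEN _) (hR₀Z.trans (centralizer_le_normalizer _))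
      have hKN : R₀ ⊔ U ≤ normalizer (K : Set G) := sup_le hR₀K hUK
      have hK' : ∀ w ∈ U, ∀ e ∈ E, w * e * w⁻¹ * e⁻¹ ∈ K := fun w hw e he => by
        have := inv_mem (commutator_mem_commutator (H₁ := E) (H₂ := U) he hw)
        simpa [commutatorElement_def, mul_assoc] using this
      let T : Subgroup G :=
        { carrier := {c | c ∈ normalizer (K : Set G) ∧ ∀ e ∈ E, c * e * c⁻¹ * e⁻¹ ∈ K}
          one_mem' := ⟨one_mem _, fun e _ => by simp⟩
          mul_mem' := fun {c d} hc hd => ⟨mul_mem hc.1 hd.1, fun e he => by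
            rw [show c * d * e * (c * d)⁻¹ * e⁻¹ =
              (c * (d * e * d⁻¹ * e⁻¹) * c⁻¹) * (c * e * c⁻¹ * e⁻¹) by group]
            exact mul_mem ((mem_normalizer_iff.mp hc.1 _).mp (hd.2 e he)) (hc.2 e he)⟩
          inv_mem' := fun {c} hc => ⟨inv_mem hc.1, fun e he => by
            rw [show c⁻¹ * e * c⁻¹⁻¹ * e⁻¹ = c⁻¹ * (c * e * c⁻¹ * e⁻¹)⁻¹ * c⁻¹⁻¹ by group]
            exact (mem_normalizer_iff.mp (inv_mem hc.1) _).mp (inv_mem (hc.2 e he))⟩ }
      have hR₁T : R₁ ≤ T := commutator_le.mpr fun r hr w hw => by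
        refine ⟨hKN (by
          rw [commutatorElement_def]
          exact mul_mem (mul_mem (mul_mem (mem_sup_left hr) (mem_sup_right hw)) (inv_mem (mem_sup_left hr)))
            (inv_mem (mem_sup_right hw))), fun e he => ?_⟩
        set k₁ := w⁻¹ * e * w⁻¹⁻¹ * e⁻¹ with hk₁
        set e' := r⁻¹ * e * r⁻¹⁻¹ with he'
        set k₂ := w * e' * w⁻¹ * e'⁻¹ with hk₂
        have h1 : k₁ ∈ K := hK' _ (inv_mem hw) e he
        have h2 : k₂ ∈ K := hK' w hw e' ((inferInstance : E.Normal).conj_mem e he r⁻¹)
        have hrwr : r * w * r⁻¹ ∈ normalizer (K : Set G) :=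
          mul_mem (mul_mem (hR₀K hr) (hUK hw)) (inv_mem (hR₀K hr))
        have e1 : ⁅r, w⁆ * e * ⁅r, w⁆⁻¹ * e⁻¹ =
            ((r * w * r⁻¹) * k₁ * (r * w * r⁻¹)⁻¹) * (r * k₂ * r⁻¹) := by
          simp only [hk₁, hk₂, he', commutatorElement_def]
          group
        rw [e1]
        exact mul_mem ((mem_normalizer_iff.mp hrwr _).mp h1) ((mem_normalizer_iff.mp (hR₀K hr) _).mp h2)
      have hle : ⁅E, R₁⁆ ≤ ⁅E, zpowers u⁆ := hKu ▸ commutator_le.mpr fun e he c hc => by
        have := inv_mem ((hR₁T hc).2 e he)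
        simpa [commutatorElement_def, mul_assoc] using this
      refine le_centralizer_iff.mp (commutator_eq_bot_iff_le_centralizer.mp (commutator_containment hE
        (hUp.to_le hzu) (fun h => ?_) (hEN _) (hEN _) (le_centralizer_iff.mp (hR₁₀.trans hR₀Z)) hle))
      exact hR (h.trans (card_dvd_of_le (hR₁₀.trans inf_le_left)))
  refine commutator_le_of_le_commInto (D := ⊤) (h := le_normalizer_of_normal) ?_
  refine H20.le_of_centralizers_le (A := U) hnc hRU hcop fun u hu hu1 => ?_
  exact fun r hr => ⟨mem_top _, fun w hw => key u hu hu1 (commutator_mem_commutator hr hw)⟩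

end Cfsg.Agent.H74
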