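import Mathlib.GroupTheory.PGroup
import Mathlib.Data.Nat.Choose.Dvd
import Mathlib.GroupTheory.Index
import Mathlib.FieldTheory.Finite.Basic
import Cfsg.Agent.H75.Basic

/-!
A lower bound for a faithful module of an extraspecial group in coprime characteristic.
-/

set_option autoImplicit false

namespace Cfsg.Agent.H74.EspecAct

open Subgroup
open scoped commutatorElement

variable {G : Type*} [Group G] [Finite G] {p r : ℕ} [hp : Fact p.Prime] [hr : Fact r.Prime]

omit [Finite G] in
theorem pow_val_add {g : G} (hg : g ^ p = 1) (a b : ZMod p) :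
    g ^ (a + b).val = g ^ a.val * g ^ b.val := by
  rw [ZMod.val_add, ← pow_add]
  conv_rhs => rw [← Nat.mod_add_div (a.val + b.val) p, pow_add, pow_mul, hg, one_pow, mul_one]

omit [Finite G] hr in
/-- The commutator map of a central commutator is a homomorphism. -/
theorem comm_mul {z : G} {x a b : G} (hz : ∀ w ∈ zpowers z, Commute a w) (hb : ⁅x, b⁆ ∈ zpowers z) :
    ⁅x, a * b⁆ = ⁅x, a⁆ * ⁅x, b⁆ := by
  have : ⁅x, a * b⁆ = ⁅x, a⁆ * (a * ⁅x, b⁆ * a⁻¹) := by simp only [commutatorElement_def]; group
  rw [this, (hz _ hb).eq, mul_inv_cancel_right]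

/-- A fixed-point-free element of order `p` on a nontrivial module forces `n ≤ d`. -/
theorem card_lower {A : Subgroup G} (hne : A ≠ ⊥) (hab : ∀ a ∈ A, a ^ r = 1) {z : G} (hz : z ^ p = 1)
    (hzn : z ∈ normalizer (A : Set G)) (hfix : ∀ a ∈ A, z * a = a * z → a = 1) {n : ℕ}
    (hmin : ∀ k : ℕ, 1 ≤ k → p ∣ r ^ k - 1 → n ≤ k) : r ^ n ≤ Nat.card A := by
  have hA : IsPGroup r A := fun a => ⟨1, Subtype.ext (by simpa using hab a a.2)⟩
  obtain ⟨d, hd⟩ := hA.exists_card_eq
  have hd1 : 1 ≤ d := by
    rcases Nat.eq_zero_or_pos d with rfl | h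
    · exact absurd (card_eq_one.mp (by simpa using hd)) hne
    · exact h
  haveI : Finite ↥A := inferInstance
  let act : MulAction ↥(zpowers z) ↥A :=
    { smul := fun g a => ⟨(g : G) * a * (g : G)⁻¹, (mem_normalizer_iff.mp ((zpowers_le.mpr hzn) g.2) a).mp a.2⟩
      one_smul := fun a => Subtype.ext (by show ((1 : ↥(zpowers z)) : G) * a * _ = a; simp)
      mul_smul := fun g h a => Subtype.ext (by
        show ((g * h : ↥(zpowers z)) : G) * a * _ = (g : G) * ((h : G) * a * (h : G)⁻¹) * (g : G)⁻¹
        push_cast; group) }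
  letI := act
  have hP : IsPGroup p ↥(zpowers z) := by
    intro g
    obtain ⟨m, hm⟩ := mem_zpowers_iff.mp g.2
    refine ⟨1, Subtype.ext ?_⟩
    push_cast
    rw [pow_one, ← hm, ← zpow_natCast, ← zpow_mul, mul_comm, zpow_mul, zpow_natCast, hz, one_zpow]
  have h1 := hP.card_modEq_card_fixedPoints ↥A
  have h2 : Nat.card (MulAction.fixedPoints ↥(zpowers z) ↥A) = 1 := by
    refine Nat.card_eq_one_iff_exists.mpr ⟨⟨1, fun g => Subtype.ext (by show (g : G) * ((1 : ↥A) : G) * _ = _; simp)⟩,
      fun ⟨a, ha⟩ => Subtype.ext (Subtype.ext (hfix a a.2 ?_))⟩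
    have := congrArg Subtype.val (ha ⟨z, mem_zpowers z⟩)
    exact mul_inv_eq_iff_eq_mul.mp this
  rw [h2, hd] at h1
  calc r ^ n ≤ r ^ d := Nat.pow_le_pow_right hr.out.pos (hmin d hd1
        ((Nat.modEq_iff_dvd' (Nat.one_le_pow _ _ hr.out.pos)).mp h1.symm))
    _ = _ := hd.symm

/-- The module splits over the conjugates of a noncentral element of order `p`. -/
theorem split_step (hpr : p ≠ r) {E A : Subgroup G} (hAne : A ≠ ⊥) (hAc : ∀ a ∈ A, ∀ b ∈ A, Commute a b)
    (hab : ∀ a ∈ A, a ^ r = 1) (hn : E ≤ normalizer (A : Set G)) {z x : G} (hzE : z ∈ E) (hxE : x ∈ E)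
    (hzc : ∀ e ∈ E, Commute e z) (hzp : z ^ p = 1) (hxp : x ^ p = 1)
    (hfix : ∀ a ∈ A, z * a = a * z → a = 1)
    (hconj : ∀ i : ZMod p, ∃ g ∈ E, g * x * g⁻¹ = x * z ^ i.val) :
    A ⊓ centralizer ({x} : Set G) ≠ ⊥ ∧
      Nat.card ↥(A ⊓ centralizer ({x} : Set G)) ^ p ≤ Nat.card A := by
  classical
  set C : ZMod p → Subgroup G := fun i => A ⊓ centralizer ({x * z ^ i.val} : Set G) with hC
  have hcard : ∀ i, Nat.card ↥(C i) = Nat.card ↥(A ⊓ centralizer ({x} : Set G)) := by
    intro i
    obtain ⟨g, hg, hgx⟩ := hconj i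
    have hmap : (A ⊓ centralizer ({x} : Set G)).map (MulAut.conj g).toMonoidHom = C i := by
      ext a
      constructor
      · rintro ⟨b, ⟨hbA, hbx⟩, rfl⟩
        refine ⟨(mem_normalizer_iff.mp (hn hg) b).mp hbA, mem_centralizer_singleton_iff.mpr ?_⟩
        rw [← hgx]
        show g * b * g⁻¹ * (g * x * g⁻¹) = g * x * g⁻¹ * (g * b * g⁻¹)
        have := mem_centralizer_singleton_iff.mp hbx
        calc g * b * g⁻¹ * (g * x * g⁻¹) = g * (b * x) * g⁻¹ := by group
          _ = _ := by rw [this]; group
      · rintro ⟨haA, hax⟩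
        refine ⟨g⁻¹ * a * g, ⟨(mem_normalizer_iff.mp (hn hg) _).mpr (by simpa [mul_assoc] using haA),
          mem_centralizer_singleton_iff.mpr ?_⟩, by simp [mul_assoc]⟩
        have h1 := mem_centralizer_singleton_iff.mp hax
        rw [← hgx] at h1
        calc g⁻¹ * a * g * x = g⁻¹ * (a * (g * x * g⁻¹)) * g := by group
          _ = g⁻¹ * ((g * x * g⁻¹) * a) * g := by rw [h1]
          _ = _ := by group
    rw [← hmap]
    exact (Nat.card_congr (Subgroup.equivMapOfInjective _ _ (MulAut.conj g).injective).toEquiv).symm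
  haveI hAcomm : IsMulCommutative ↥A := ⟨⟨fun a b => Subtype.ext (hAc a a.2 b b.2)⟩⟩
  letI : CommGroup ↥A := { (inferInstance : Group ↥A) with mul_comm := fun a b => Subtype.ext (hAc a a.2 b b.2) }
  have hN : ∀ e ∈ E, ∀ a ∈ A, e * a * e⁻¹ ∈ A := fun e he a ha => (mem_normalizer_iff.mp (hn he) a).mp ha
  -- averaging
  have hne : A ⊓ centralizer ({x} : Set G) ≠ ⊥ := by
    intro hbot
    have hall : ∀ i, C i = ⊥ := fun i => card_eq_one.mp (by rw [hcard, hbot, card_bot])
    apply hAne
    refine (eq_bot_iff_forall A).mpr fun a ha => ?_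
    let F : ZMod p → ZMod p → ↥A := fun l j =>
      ⟨(x ^ l.val * z ^ j.val) * a * (x ^ l.val * z ^ j.val)⁻¹, hN _ (mul_mem (pow_mem hxE _) (pow_mem hzE _)) a ha⟩
    have hz0 : ∏ j, F 0 j = 1 := by
      refine Subtype.ext (hfix _ (∏ j, F 0 j).2 ?_)
      let φ : ↥A →* ↥A := MonoidHom.mk' (fun b => ⟨z * b * z⁻¹, hN z hzE b b.2⟩) fun b c =>
        Subtype.ext (by push_cast; group)
      have h1 : φ (∏ j, F 0 j) = ∏ j, F 0 j := by
        rw [map_prod]
        refine Fintype.prod_equiv (Equiv.addLeft (1 : ZMod p)) _ _ fun j => Subtype.ext ?_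
        show z * ((x ^ (0 : ZMod p).val * z ^ j.val) * a * (x ^ (0 : ZMod p).val * z ^ j.val)⁻¹) * z⁻¹ = _
        show _ = (x ^ (0 : ZMod p).val * z ^ (1 + j).val) * a * (x ^ (0 : ZMod p).val * z ^ (1 + j).val)⁻¹
        rw [ZMod.val_zero, pow_zero, one_mul, one_mul, pow_val_add hzp, ZMod.val_one, pow_one]
        group
      exact mul_inv_eq_iff_eq_mul.mp (congrArg Subtype.val h1)
    have hzl : ∀ l, ∏ j, F l j = 1 := by
      intro l
      let φ : ↥A →* ↥A := MonoidHom.mk' (fun b => ⟨x ^ l.val * b * (x ^ l.val)⁻¹, hN _ (pow_mem hxE _) b b.2⟩)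
        fun b c => Subtype.ext (by push_cast; group)
      have : ∀ j, F l j = φ (F 0 j) := fun j => Subtype.ext (by
        show _ = x ^ l.val * ((x ^ (0 : ZMod p).val * z ^ j.val) * a * (x ^ (0 : ZMod p).val * z ^ j.val)⁻¹) * (x ^ l.val)⁻¹
        rw [ZMod.val_zero, pow_zero, one_mul]
        show (x ^ l.val * z ^ j.val) * a * (x ^ l.val * z ^ j.val)⁻¹ = _
        group)
      simp_rw [this]
      rw [← map_prod, hz0, map_one]
    have hNi : ∀ i : ZMod p, ∏ l, F l (i * l) = 1 := by
      intro i
      refine Subtype.ext ?_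
      have hmem : ((∏ l, F l (i * l) : ↥A) : G) ∈ C i := by
        refine ⟨(∏ l, F l (i * l)).2, mem_centralizer_singleton_iff.mpr ?_⟩
        let φ : ↥A →* ↥A := MonoidHom.mk' (fun b => ⟨(x * z ^ i.val) * b * (x * z ^ i.val)⁻¹,
          hN _ (mul_mem hxE (pow_mem hzE _)) b b.2⟩) fun b c => Subtype.ext (by push_cast; group)
        have h1 : φ (∏ l, F l (i * l)) = ∏ l, F l (i * l) := by
          rw [map_prod]
          refine Fintype.prod_equiv (Equiv.addLeft (1 : ZMod p)) _ _ fun l => Subtype.ext ?_
          show (x * z ^ i.val) * ((x ^ l.val * z ^ (i * l).val) * a * (x ^ l.val * z ^ (i * l).val)⁻¹) * (x * z ^ i.val)⁻¹ =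
            (x ^ (1 + l).val * z ^ (i * (1 + l)).val) * a * (x ^ (1 + l).val * z ^ (i * (1 + l)).val)⁻¹
          rw [pow_val_add hxp, ZMod.val_one, pow_one, mul_add, mul_one, pow_val_add hzp]
          have hc : Commute (z ^ i.val) (x ^ l.val) := ((hzc _ (pow_mem hxE l.val)).symm).pow_left _
          have e : x * x ^ l.val * (z ^ i.val * z ^ (i * l).val) = (x * z ^ i.val) * (x ^ l.val * z ^ (i * l).val) := by
            rw [mul_assoc x, mul_assoc x]
            congr 1
            rw [← mul_assoc, ← mul_assoc, hc.eq]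
          rw [e]; group
        exact (mul_inv_eq_iff_eq_mul.mp (congrArg Subtype.val h1)).symm
      rw [hall i, mem_bot] at hmem
      exact hmem
    have hp0 : (⟨a, ha⟩ : ↥A) ^ p = 1 := by
      have h1 : ∏ l, ∏ i, F l (i * l) = 1 := by
        rw [Finset.prod_comm]; exact Finset.prod_eq_one fun i _ => hNi i
      rw [Finset.prod_eq_single (0 : ZMod p) ?_ (by simp)] at h1
      · simp only [mul_zero, Finset.prod_const, Finset.card_univ, ZMod.card] at h1
        have e : F 0 0 = (⟨a, ha⟩ : ↥A) := Subtype.ext (by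
          show (x ^ (0 : ZMod p).val * z ^ (0 : ZMod p).val) * a * _ = a
          simp)
        rwa [e] at h1
      · intro l _ hl
        rw [← hzl l]
        exact Fintype.prod_equiv (Equiv.mulRight₀ l hl) _ _ fun i => rfl
    have h2 : a ^ p = 1 := by simpa using congrArg Subtype.val hp0
    have := Nat.eq_one_of_dvd_coprimes ((Nat.coprime_primes hp.out hr.out).mpr hpr)
      (orderOf_dvd_of_pow_eq_one h2) (orderOf_dvd_of_pow_eq_one (hab a ha))
    exact orderOf_eq_one_iff.mp this
  refine ⟨hne, ?_⟩
  -- independence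
  set ψ : ℕ → G → G := fun i b => x * b * x⁻¹ * (z ^ i * b⁻¹ * (z ^ i)⁻¹) with hψ
  let T : ℕ → Subgroup G := fun m => Nat.rec ⊥ (fun i T => T ⊔ C (-(i : ZMod p))) m
  let K : ℕ → Set G := fun m => Nat.rec {1} (fun i K => {b | ψ i b ∈ K}) m
  have hT0 : T 0 = ⊥ := rfl
  have hTs : ∀ i, T (i + 1) = T i ⊔ C (-(i : ZMod p)) := fun i => rfl
  have hK0 : K 0 = {1} := rfl
  have hKs : ∀ i, K (i + 1) = {b | ψ i b ∈ K i} := fun i => rfl
  have hCmem : ∀ (i : ℕ) (b : G), b ∈ C (-(i : ZMod p)) → b ∈ A ∧ x * b * x⁻¹ = z ^ i * b * (z ^ i)⁻¹ := by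
    rintro i b ⟨hbA, hb⟩
    refine ⟨hbA, ?_⟩
    have h := mem_centralizer_singleton_iff.mp hb
    have hxz : Commute x (z ^ i) := (hzc x hxE).pow_right _
    have hz1 : z ^ i * z ^ (-(i : ZMod p)).val = 1 := by
      have : z ^ i = z ^ (i : ZMod p).val := by
        rw [ZMod.val_natCast]
        conv_lhs => rw [← Nat.mod_add_div i p, pow_add, pow_mul, hzp, one_pow, mul_one]
      rw [this, ← pow_val_add hzp, add_neg_cancel, ZMod.val_zero, pow_zero]
    have hxx : x = z ^ i * (x * z ^ (-(i : ZMod p)).val) := by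
      rw [← mul_assoc, ← hxz.eq, mul_assoc, hz1, mul_one]
    calc x * b * x⁻¹ = z ^ i * ((x * z ^ (-(i : ZMod p)).val) * b) * (x * z ^ (-(i : ZMod p)).val)⁻¹ * (z ^ i)⁻¹ := by
          conv_lhs => rw [hxx]
          group
      _ = _ := by rw [← h]; group
  have hψC : ∀ (i l : ℕ) (b : G), b ∈ C (-(l : ZMod p)) → ψ i b ∈ C (-(l : ZMod p)) := by
    intro i l b hb
    obtain ⟨hbA, hbx⟩ := hb
    have hcz : Commute (x * z ^ (-(l : ZMod p)).val) x := (Commute.refl x).mul_left ((hzc x hxE).symm.pow_left _)
    have hcz' : Commute (x * z ^ (-(l : ZMod p)).val) (z ^ i) :=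
      ((hzc x hxE).mul_left ((Commute.refl z).pow_left _)).pow_right i
    refine ⟨mul_mem (hN x hxE b hbA) (hN _ (pow_mem hzE i) _ (inv_mem hbA)), mem_centralizer_singleton_iff.mpr ?_⟩
    have hcb : Commute (x * z ^ (-(l : ZMod p)).val) b := (mem_centralizer_singleton_iff.mp hbx).symm
    exact (((hcz.mul_right hcb).mul_right hcz.inv_right).mul_right
      ((hcz'.mul_right hcb.inv_right).mul_right hcz'.inv_right)).eq.symm
  have hTA : ∀ m, T m ≤ A := by
    intro m
    induction m with
    | zero => exact bot_le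
    | succ i ih => rw [hTs]; exact sup_le ih inf_le_left
  have hK1 : ∀ m, (1 : G) ∈ K m := by
    intro m
    induction m with
    | zero => exact rfl
    | succ i ih => rw [hKs]; simpa [hψ] using ih
  have hψmul : ∀ (i : ℕ) (b c : G), b ∈ A → c ∈ A → ψ i (b * c) = ψ i b * ψ i c := by
    intro i b c hb hc
    have h1 : Commute (z ^ i * b⁻¹ * (z ^ i)⁻¹) (x * c * x⁻¹) := hAc _ (hN _ (pow_mem hzE i) _ (inv_mem hb)) _ (hN x hxE c hc)
    have h2 : Commute b⁻¹ c⁻¹ := hAc _ (inv_mem hb) _ (inv_mem hc)
    simp only [hψ]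
    calc x * (b * c) * x⁻¹ * (z ^ i * (b * c)⁻¹ * (z ^ i)⁻¹)
        = (x * b * x⁻¹) * (x * c * x⁻¹) * (z ^ i * (b⁻¹ * c⁻¹) * (z ^ i)⁻¹) := by rw [h2.eq]; group
      _ = (x * b * x⁻¹) * ((x * c * x⁻¹) * (z ^ i * b⁻¹ * (z ^ i)⁻¹)) * (z ^ i * c⁻¹ * (z ^ i)⁻¹) := by group
      _ = _ := by rw [← h1.eq]; group
  have hψA : ∀ (i : ℕ) (b : G), b ∈ A → ψ i b ∈ A := fun i b hb =>
    mul_mem (hN x hxE b hb) (hN _ (pow_mem hzE i) _ (inv_mem hb))
  have hKmul : ∀ (m : ℕ) (b c : G), b ∈ A → c ∈ A → b ∈ K m → c ∈ K m → b * c ∈ K m := by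
    intro m
    induction m with
    | zero => intro b c _ _ hb hc; rw [hK0, Set.mem_singleton_iff] at hb hc ⊢; rw [hb, hc, one_mul]
    | succ i ih =>
      intro b c hb hc hbK hcK
      rw [hKs, Set.mem_setOf_eq] at hbK hcK ⊢
      rw [hψmul i b c hb hc]
      exact ih _ _ (hψA i b hb) (hψA i c hc) hbK hcK
  have hTK : ∀ m, ∀ b ∈ T m, b ∈ K m := by
    intro m
    have hCK : ∀ (i l : ℕ), l < i → ∀ b ∈ C (-(l : ZMod p)), b ∈ K i := by
      intro i
      induction i with
      | zero => intro l hl; omega
      | succ i ih =>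
        intro l hl b hb
        rw [hKs, Set.mem_setOf_eq]
        rcases Nat.lt_succ_iff_lt_or_eq.mp hl with h | h
        · exact ih l h _ (hψC i l b hb)
        · subst h
          have : ψ l b = 1 := by
            obtain ⟨-, he⟩ := hCmem l b hb
            show x * b * x⁻¹ * (z ^ l * b⁻¹ * (z ^ l)⁻¹) = 1
            rw [he]; group
          rw [this]; exact hK1 l
    have hTgen : T m ≤ closure {b | b ∈ A ∧ b ∈ K m} := by
      have : ∀ j, j ≤ m → T j ≤ closure {b | b ∈ A ∧ b ∈ K m} := by
        intro j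
        induction j with
        | zero => intro _; exact bot_le
        | succ j ihj =>
          intro hj
          rw [hTs]
          exact sup_le (ihj (by omega)) fun b hb => subset_closure ⟨hb.1, hCK m j (by omega) b hb⟩
      exact this m le_rfl
    intro b hb
    refine (show b ∈ A ∧ b ∈ K m from ?_).2
    refine closure_induction (p := fun b _ => b ∈ A ∧ b ∈ K m) (fun b hb => hb) ⟨one_mem _, hK1 m⟩
      (fun b c _ _ hb hc => ⟨mul_mem hb.1 hc.1, hKmul m b c hb.1 hc.1 hb.2 hc.2⟩) (fun b _ hb => ?_) (hTgen hb)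
    refine ⟨inv_mem hb.1, ?_⟩
    have hbr : b⁻¹ = b ^ (r - 1) := by
      rw [← mul_eq_one_iff_inv_eq.mp (show b * b ^ (r - 1) = 1 by rw [← pow_succ', Nat.sub_add_cancel hr.out.one_le, hab b hb.1])]
    rw [hbr]
    induction r - 1 with
    | zero => rw [pow_zero]; exact hK1 m
    | succ j ihj => rw [pow_succ]; exact hKmul m _ _ (pow_mem hb.1 j) hb.1 ihj hb.2
  have hinj : ∀ i m : ℕ, i < m → m < p → ∀ b ∈ C (-(m : ZMod p)), b ∈ K (i + 1) → ψ i b ∈ K i ∧ (ψ i b = 1 → b = 1) := by
    intro i m him hmp b hb hbK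
    refine ⟨hbK, fun h1 => ?_⟩
    obtain ⟨hbA, hm⟩ := hCmem m b hb
    obtain ⟨d, hd⟩ := Nat.exists_eq_add_of_lt him
    have h2 : x * b * x⁻¹ = z ^ i * b * (z ^ i)⁻¹ := by
      have h1' : x * b * x⁻¹ * (z ^ i * b⁻¹ * (z ^ i)⁻¹) = 1 := h1
      rw [mul_eq_one_iff_eq_inv] at h1'
      rw [h1']; group
    rw [hm, show m = i + (d + 1) by omega, pow_add] at h2
    have h3 : z ^ (d + 1) * b * (z ^ (d + 1))⁻¹ = b := by
      have := congrArg (fun w => (z ^ i)⁻¹ * w * z ^ i) h2
      simpa [mul_assoc] using this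
    refine hfix b hbA ?_
    have hmem : z ∈ zpowers (z ^ (d + 1)) := by
      refine mem_zpowers_pow_iff.mpr ?_
      refine (Nat.Coprime.coprime_dvd_left (orderOf_dvd_of_pow_eq_one hzp) ?_).symm
      exact (hp.out.coprime_iff_not_dvd).mpr fun h => by have := Nat.le_of_dvd (by omega) h; omega
    obtain ⟨j, hj⟩ := mem_zpowers_iff.mp hmem
    have hc : Commute (z ^ (d + 1)) b := mul_inv_eq_iff_eq_mul.mp h3
    have := hc.zpow_left j
    rwa [hj] at this
  have hdisj : ∀ m, m < p → C (-(m : ZMod p)) ⊓ T m = ⊥ := by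
    intro m hm
    refine (eq_bot_iff_forall _).mpr fun b hb => ?_
    have key : ∀ i, i ≤ m → ∀ b ∈ C (-(m : ZMod p)), b ∈ K i → b = 1 := by
      intro i
      induction i with
      | zero => intro _ b _ hbK; exact hbK
      | succ i ihi =>
        intro hi b hb hbK
        obtain ⟨h1, h2⟩ := hinj i m (by omega) hm b hb hbK
        exact h2 (ihi (by omega) _ (hψC i m b hb) h1)
    exact key m le_rfl b hb.1 (hTK m b hb.2)
  have hgrow : ∀ m, m ≤ p → Nat.card ↥(A ⊓ centralizer ({x} : Set G)) ^ m ≤ Nat.card ↥(T m) := by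
    intro m
    induction m with
    | zero => intro _; rw [pow_zero, hT0, card_bot]
    | succ m ih =>
      intro hm
      rw [pow_succ, hTs]
      have h1 := H75.card_mul_card_le (C (-(m : ZMod p))) (T m)
      rw [hdisj m (by omega), card_bot, one_mul, hcard, sup_comm] at h1
      exact le_trans (by rw [mul_comm]; exact Nat.mul_le_mul_left _ (ih (by omega))) h1
  exact (hgrow p le_rfl).trans (Nat.le_of_dvd Nat.card_pos (card_dvd_of_le (hTA p)))

/-- The bound for a `p`-group with derived subgroup and `p`-th powers in `⟨z⟩`, `z` fixed-point-free. -/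
theorem bound (hpr : p ≠ r) {n : ℕ} (hmin : ∀ k : ℕ, 1 ≤ k → p ∣ r ^ k - 1 → n ≤ k) (w : ℕ) :
    ∀ (E A : Subgroup G) (z : G), z ∈ E → z ^ p = 1 → (∀ e ∈ E, Commute e z) →
      (∀ a ∈ E, ∀ b ∈ E, ⁅a, b⁆ ∈ zpowers z) → (∀ e ∈ E, e ^ p ∈ zpowers z) →
      p ^ (2 * w) * Nat.card ↥(E ⊓ centralizer (E : Set G)) ≤ Nat.card E →
      E ≤ normalizer (A : Set G) → (∀ a ∈ A, ∀ b ∈ A, Commute a b) → (∀ a ∈ A, a ^ r = 1) →
      A ≠ ⊥ → (∀ a ∈ A, z * a = a * z → a = 1) → r ^ (n * p ^ w) ≤ Nat.card A := by
  induction w with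
  | zero =>
    intro E A z hzE hzp _ _ _ _ hn _ hab hne hfix
    rw [pow_zero, mul_one]
    exact card_lower hne hab hzp (hn hzE) hfix hmin
  | succ w ih =>
    intro E A z hzE hzp hzc hcomm hpow hidx hn hAc hab hne hfix
    have hcz : ∀ e ∈ E, ∀ u ∈ zpowers z, Commute e u := by
      intro e he u hu
      obtain ⟨m, rfl⟩ := mem_zpowers_iff.mp hu
      exact (hzc e he).zpow_right m
    have hzle : zpowers z ≤ E := zpowers_le.mpr hzE
    have hz1 : z ≠ 1 := fun h => hne ((eq_bot_iff_forall A).mpr fun a ha => hfix a ha (by simp [h]))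
    have hordz : orderOf z = p := orderOf_eq_prime hzp hz1
    have hcardz : Nat.card ↥(zpowers z) = p := by rw [Nat.card_zpowers, hordz]
    -- commutation with a fixed element
    have hhom : ∀ x ∈ E, Nat.card E ≤ p * Nat.card ↥(E ⊓ centralizer ({x} : Set G)) := by
      intro x hx
      let φ : ↥E →* ↥(zpowers z) := MonoidHom.mk' (fun e => ⟨⁅x, (e : G)⁆, hcomm x hx e e.2⟩) fun a b =>
        Subtype.ext (comm_mul (hcz a a.2) (hcomm x hx b b.2))
      have hker : φ.ker.map E.subtype ≤ E ⊓ centralizer ({x} : Set G) := by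
        rintro _ ⟨e, he, rfl⟩
        refine ⟨e.2, mem_centralizer_singleton_iff.mpr ?_⟩
        exact (commutatorElement_eq_one_iff_mul_comm.mp (congrArg Subtype.val he : ⁅x, (e : G)⁆ = 1)).symm
      calc Nat.card E = Nat.card φ.ker * φ.ker.index := (φ.ker.card_mul_index).symm
        _ ≤ Nat.card ↥(E ⊓ centralizer ({x} : Set G)) * p := by
            refine Nat.mul_le_mul ?_ ?_
            · rw [Nat.card_congr (φ.ker.equivMapOfInjective _ E.subtype_injective).toEquiv]
              exact Nat.le_of_dvd Nat.card_pos (card_dvd_of_le hker)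
            · rw [index_ker]
              exact (Nat.le_of_dvd Nat.card_pos (card_subgroup_dvd_card φ.range)).trans hcardz.le
        _ = _ := by ring
    set Z := E ⊓ centralizer (E : Set G) with hZ
    have hpp : p * p * Nat.card Z ≤ Nat.card E := by
      refine le_trans ?_ hidx
      rw [show 2 * (w + 1) = 2 + 2 * w by ring, pow_add, pow_two]
      exact Nat.mul_le_mul_right _ (Nat.le_mul_of_pos_right _ (pow_pos hp.out.pos _))
    by_cases hex : ∃ x ∈ E, x ^ p = 1 ∧ x ∉ centralizer (E : Set G)
    · obtain ⟨x, hxE, hxp, hxc⟩ := hex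
      obtain ⟨e₀, he₀E, he₀⟩ : ∃ e ∈ E, ⁅x, e⁆ ≠ 1 := by
        by_contra h
        push Not at h
        exact hxc (mem_centralizer_iff.mpr fun e he => (commutatorElement_eq_one_iff_mul_comm.mp (h e he)).symm)
      have hgen : ∀ (u : G), u ∈ zpowers z → u ≠ 1 → ∀ v ∈ zpowers z, ∃ m : ℕ, u ^ m = v := by
        intro u hu hu1 v hv
        have h1 : zpowers u = zpowers z := by
          refine eq_of_le_of_card_ge (zpowers_le.mpr hu) ?_
          rw [hcardz, Nat.card_zpowers]
          obtain ⟨m, rfl⟩ := mem_zpowers_iff.mp hu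
          refine le_of_eq (orderOf_eq_prime ?_ hu1).symm
          rw [← zpow_natCast, ← zpow_mul, mul_comm, zpow_mul, zpow_natCast, hzp, one_zpow]
        rw [← h1, mem_zpowers_iff] at hv
        exact mem_powers_iff_mem_zpowers.mpr (mem_zpowers_iff.mpr hv)
      have hpowc : ∀ m : ℕ, ⁅x, e₀ ^ m⁆ = ⁅x, e₀⁆ ^ m := by
        intro m
        induction m with
        | zero => simp
        | succ m ihm => rw [pow_succ', comm_mul (hcz e₀ he₀E) (hcomm x hxE _ (pow_mem he₀E m)), ihm, pow_succ']
      have hconj : ∀ i : ZMod p, ∃ g ∈ E, g * x * g⁻¹ = x * z ^ i.val := by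
        intro i
        obtain ⟨m, hm⟩ := hgen _ (hcomm x hxE e₀ he₀E) he₀ (z ^ i.val)⁻¹ (inv_mem (pow_mem (mem_zpowers z) _))
        refine ⟨e₀ ^ m, pow_mem he₀E m, ?_⟩
        rw [← hpowc, commutatorElement_def] at hm
        have h2 : e₀ ^ m * x * (e₀ ^ m)⁻¹ = z ^ i.val * x := by
          rw [← inv_inv (z ^ i.val), ← hm]; group
        rw [h2, (hcz x hxE _ (pow_mem (mem_zpowers z) _)).eq]
      obtain ⟨hC0, hCp⟩ := split_step hpr hne hAc hab hn hzE hxE hzc hzp hxp hfix hconj
      set E' := E ⊓ centralizer ({x} : Set G) with hE'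
      set A' := A ⊓ centralizer ({x} : Set G) with hA'
      have hzE' : z ∈ E' := ⟨hzE, mem_centralizer_singleton_iff.mpr ((hzc x hxE).symm).eq⟩
      have hidx' : p ^ (2 * w) * Nat.card ↥(E' ⊓ centralizer (E' : Set G)) ≤ Nat.card E' := by
        set W := E' ⊓ centralizer (E' : Set G) with hW
        have hW' : Nat.card W ≤ p * Nat.card Z := by
          let ψ : ↥W →* ↥(zpowers z) := MonoidHom.mk' (fun y => ⟨⁅e₀, (y : G)⁆, hcomm e₀ he₀E y y.2.1.1⟩)
            fun a b => Subtype.ext (comm_mul (hcz a a.2.1.1) (hcomm e₀ he₀E b b.2.1.1))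
          have hker : ψ.ker.map W.subtype ≤ Z := by
            rintro _ ⟨y, hy, rfl⟩
            refine ⟨y.2.1.1, mem_centralizer_iff.mpr fun e he => ?_⟩
            obtain ⟨m, hm⟩ := hgen _ (hcomm x hxE e₀ he₀E) he₀ _ (hcomm x hxE e he)
            rw [← hpowc] at hm
            have hq : e * (e₀ ^ m)⁻¹ ∈ E' := by
              refine ⟨E.mul_mem he (E.inv_mem (E.pow_mem he₀E m)), mem_centralizer_singleton_iff.mpr ?_⟩
              refine (commutatorElement_eq_one_iff_mul_comm.mp ?_).symm
              have hem := comm_mul (x := x) (hcz _ (mul_mem he (inv_mem (pow_mem he₀E m))))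
                (hcomm x hxE _ (pow_mem he₀E m))
              rw [inv_mul_cancel_right, hm] at hem
              exact mul_right_cancel (hem.symm.trans (one_mul _).symm)
            have hy1 : Commute e₀ (y : G) :=
              commutatorElement_eq_one_iff_mul_comm.mp (congrArg Subtype.val hy : ⁅e₀, (y : G)⁆ = 1)
            have hy2 : Commute (e * (e₀ ^ m)⁻¹) (y : G) := mem_centralizer_iff.mp y.2.2 _ hq
            have := hy2.mul_left (hy1.pow_left m)
            rwa [inv_mul_cancel_right] at this
          calc Nat.card W = Nat.card ψ.ker * ψ.ker.index := (ψ.ker.card_mul_index).symm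
            _ ≤ Nat.card Z * p := by
                refine Nat.mul_le_mul ?_ ?_
                · rw [Nat.card_congr (ψ.ker.equivMapOfInjective _ W.subtype_injective).toEquiv]
                  exact Nat.le_of_dvd Nat.card_pos (card_dvd_of_le hker)
                · rw [index_ker]
                  exact (Nat.le_of_dvd Nat.card_pos (card_subgroup_dvd_card ψ.range)).trans hcardz.le
            _ = _ := by ring
        refine Nat.le_of_mul_le_mul_left ?_ hp.out.pos
        calc p * (p ^ (2 * w) * Nat.card W) ≤ p * (p ^ (2 * w) * (p * Nat.card Z)) :=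
              Nat.mul_le_mul_left _ (Nat.mul_le_mul_left _ hW')
          _ = p ^ (2 * (w + 1)) * Nat.card Z := by ring
          _ ≤ Nat.card E := hidx
          _ ≤ p * Nat.card E' := hhom x hxE
      have hn' : E' ≤ normalizer (A' : Set G) := by
        intro e he
        have hec : Commute e x := mem_centralizer_singleton_iff.mp he.2
        refine mem_normalizer_iff.mpr fun a => ?_
        constructor
        · rintro ⟨ha, hax⟩
          refine ⟨(mem_normalizer_iff.mp (hn he.1) a).mp ha, mem_centralizer_singleton_iff.mpr ?_⟩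
          exact ((hec.mul_left (mem_centralizer_singleton_iff.mp hax : Commute a x)).mul_left hec.inv_left).eq
        · rintro ⟨ha, hax⟩
          refine ⟨(mem_normalizer_iff.mp (hn he.1) a).mpr ha, mem_centralizer_singleton_iff.mpr ?_⟩
          have := (hec.inv_left.mul_left (mem_centralizer_singleton_iff.mp hax : Commute (e * a * e⁻¹) x)).mul_left hec
          simpa [mul_assoc] using this.eq
      have h := ih E' A' z hzE' hzp (fun e he => hzc e he.1) (fun a ha b hb => hcomm a ha.1 b hb.1)
        (fun e he => hpow e he.1) hidx' hn' (fun a ha b hb => hAc a ha.1 b hb.1) (fun a ha => hab a ha.1) hC0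
        (fun a ha => hfix a ha.1)
      calc r ^ (n * p ^ (w + 1)) = (r ^ (n * p ^ w)) ^ p := by rw [← pow_mul, pow_succ, mul_assoc]
        _ ≤ Nat.card A' ^ p := Nat.pow_le_pow_left h p
        _ ≤ _ := hCp
    · push Not at hex
      -- only `p = 2`, `w = 0` survives
      have hp2 : p = 2 := by
        rcases hp.out.eq_two_or_odd' with h | hodd
        · exact h
        exfalso
        have hmulpow : ∀ a ∈ E, ∀ b ∈ E, (a * b) ^ p = a ^ p * b ^ p := by
          intro a ha b hb
          set c := ⁅b, a⁆ with hc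
          have hcm := hcomm b hb a ha
          have hba : b * a = c * (a * b) := by rw [hc, commutatorElement_def]; group
          have hbk : ∀ k : ℕ, b ^ k * a = c ^ k * (a * b ^ k) := by
            intro k
            induction k with
            | zero => simp
            | succ k ihk =>
              calc b ^ (k + 1) * a = b * (b ^ k * a) := by rw [pow_succ']; group
                _ = (b * c ^ k) * (a * b ^ k) := by rw [ihk]; group
                _ = (c ^ k * b) * (a * b ^ k) := by rw [((hcz b hb c hcm).pow_right k).eq]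
                _ = c ^ k * (b * a) * b ^ k := by group
                _ = _ := by rw [hba, pow_succ c, pow_succ' b]; group
          have hk : ∀ k : ℕ, (a * b) ^ k = a ^ k * b ^ k * c ^ (k.choose 2) := by
            intro k
            induction k with
            | zero => simp
            | succ k ihk =>
              have h1 : Commute (a * b) (c ^ (k.choose 2)) := (hcz _ (mul_mem ha hb) c hcm).pow_right _
              calc (a * b) ^ (k + 1) = a ^ k * b ^ k * ((a * b) * c ^ (k.choose 2)) := by
                    rw [pow_succ, ihk, h1.eq]; group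
                _ = a ^ k * (b ^ k * a) * b * c ^ (k.choose 2) := by group
                _ = a ^ k * c ^ k * (a * b ^ k) * b * c ^ (k.choose 2) := by rw [hbk]; group
                _ = a ^ k * (c ^ k * (a * b ^ (k + 1))) * c ^ (k.choose 2) := by rw [pow_succ b]; group
                _ = a ^ (k + 1) * b ^ (k + 1) * (c ^ k * c ^ (k.choose 2)) := by
                    rw [← ((hcz _ (mul_mem ha (pow_mem hb (k + 1))) c hcm).pow_right k).eq, pow_succ a]; group
                _ = _ := by rw [← pow_add, Nat.choose_succ_succ', Nat.choose_one_right]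
          rw [hk p]
          obtain ⟨t, ht⟩ := hp.out.dvd_choose_self (by norm_num : (2 : ℕ) ≠ 0)
            (by have := hp.out.two_le; obtain ⟨s, hs⟩ := hodd; omega : 2 < p)
          have hcp : c ^ p = 1 := by
            obtain ⟨m, hm⟩ := mem_zpowers_iff.mp hcm
            rw [hc, ← hm, ← zpow_natCast, ← zpow_mul, mul_comm, zpow_mul, zpow_natCast, hzp, one_zpow]
          rw [ht, pow_mul, hcp, one_pow, mul_one]
        let φ : ↥E →* ↥(zpowers z) := MonoidHom.mk' (fun e => ⟨(e : G) ^ p, hpow e e.2⟩) fun a b =>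
          Subtype.ext (hmulpow a a.2 b b.2)
        have hker : φ.ker.map E.subtype ≤ Z := by
          rintro _ ⟨e, he, rfl⟩
          exact ⟨e.2, hex e e.2 (congrArg Subtype.val he)⟩
        have : Nat.card E ≤ Nat.card Z * p := by
          calc Nat.card E = Nat.card φ.ker * φ.ker.index := (φ.ker.card_mul_index).symm
            _ ≤ _ := by
              refine Nat.mul_le_mul ?_ ?_
              · rw [Nat.card_congr (φ.ker.equivMapOfInjective _ E.subtype_injective).toEquiv]
                exact Nat.le_of_dvd Nat.card_pos (card_dvd_of_le hker)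
              · rw [index_ker]
                exact (Nat.le_of_dvd Nat.card_pos (card_subgroup_dvd_card φ.range)).trans hcardz.le
        have h2 : p * p * Nat.card Z ≤ p * Nat.card Z := hpp.trans (this.trans (by rw [mul_comm]))
        have := Nat.le_of_mul_le_mul_right h2 Nat.card_pos
        have := hp.out.two_le
        nlinarith
      subst hp2
      have hzsq : ∀ u ∈ zpowers z, u = 1 ∨ u = z := by
        intro u hu
        obtain ⟨m, rfl⟩ := mem_zpowers_iff.mp hu
        rcases Int.even_or_odd m with ⟨l, rfl⟩ | ⟨l, rfl⟩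
        · left; rw [← two_mul, zpow_mul, zpow_ofNat, hzp, one_zpow]
        · right; rw [zpow_add, zpow_mul, zpow_ofNat, hzp, one_zpow, one_mul, zpow_one]
      rcases Nat.eq_zero_or_pos w with rfl | hw
      · -- the quaternion case
        obtain ⟨a, haE, hac⟩ : ∃ a ∈ E, a ∉ centralizer (E : Set G) := by
          by_contra h
          push Not at h
          have : Nat.card E ≤ Nat.card Z := Nat.le_of_dvd Nat.card_pos (card_dvd_of_le (le_inf le_rfl h))
          have hpos : 0 < Nat.card Z := Nat.card_pos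
          nlinarith
        obtain ⟨b, hbE, hb⟩ : ∃ b ∈ E, ⁅a, b⁆ ≠ 1 := by
          by_contra h
          push Not at h
          exact hac (mem_centralizer_iff.mpr fun e he => (commutatorElement_eq_one_iff_mul_comm.mp (h e he)).symm)
        have hab' : ⁅a, b⁆ = z := (hzsq _ (hcomm a haE b hbE)).resolve_left hb
        obtain ⟨d, hd⟩ := (show IsPGroup r A from fun a => ⟨1, Subtype.ext (by simpa using hab a a.2)⟩).exists_card_eq
        have hd2 : 2 ≤ d := by
          rcases Nat.lt_or_ge d 2 with hlt | h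
          · exfalso
            have hd1 : d = 1 := by
              rcases Nat.eq_zero_or_pos d with rfl | hpos
              · exact absurd (card_eq_one.mp (by simpa using hd)) hne
              · omega
            subst hd1
            rw [pow_one] at hd
            obtain ⟨v, hv⟩ := ((nontrivial_iff_ne_bot A).mpr hne).exists_pair_ne
            obtain ⟨u, huA, hu1⟩ : ∃ u ∈ A, u ≠ 1 := (ne_bot_iff_exists_ne_one.mp hne) |>.elim fun u hu =>
              ⟨u, u.2, fun h => hu (Subtype.ext h)⟩
            have hgenA : A = zpowers u := by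
              refine (eq_of_le_of_card_ge (zpowers_le.mpr huA) ?_).symm
              rw [hd, Nat.card_zpowers, orderOf_eq_prime (hab u huA) hu1]
            have hact : ∀ e ∈ E, ∃ m : ℤ, e * u * e⁻¹ = u ^ m := fun e he =>
              (mem_zpowers_iff.mp (hgenA ▸ (mem_normalizer_iff.mp (hn he) u).mp huA)).imp fun m hm => hm.symm
            obtain ⟨ka, hka⟩ := hact a haE
            obtain ⟨kb, hkb⟩ := hact b hbE
            have e1 : ∀ (g : G) (m : ℤ), g * u ^ m * g⁻¹ = (g * u * g⁻¹) ^ m := fun g m => conj_zpow.symm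
            have e2 : a * b * u * (a * b)⁻¹ = b * a * u * (b * a)⁻¹ := by
              calc a * b * u * (a * b)⁻¹ = a * (b * u * b⁻¹) * a⁻¹ := by group
                _ = u ^ (ka * kb) := by rw [hkb, e1, hka, ← zpow_mul]
                _ = b * (a * u * a⁻¹) * b⁻¹ := by rw [hka, e1, hkb, ← zpow_mul, mul_comm]
                _ = _ := by group
            have hzu : z * u * z⁻¹ = u := by
              rw [← hab', commutatorElement_def]
              calc a * b * a⁻¹ * b⁻¹ * u * (a * b * a⁻¹ * b⁻¹)⁻¹
                  = a * b * ((b * a)⁻¹ * u * (b * a)) * (a * b)⁻¹ := by group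
                _ = (b * a) * ((b * a)⁻¹ * u * (b * a)) * (b * a)⁻¹ := by
                    obtain ⟨m, hm⟩ := mem_zpowers_iff.mp
                      (hgenA ▸ (show (b * a)⁻¹ * u * (b * a) ∈ A by
                        have := (mem_normalizer_iff.mp (hn (inv_mem (mul_mem hbE haE))) u).mp huA
                        rwa [inv_inv] at this) : (b * a)⁻¹ * u * (b * a) ∈ zpowers u)
                    rw [← hm, e1, e2, ← e1]
                _ = u := by group
            exact hu1 (hfix u huA (mul_inv_eq_iff_eq_mul.mp hzu))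
          · exact h
        have hn1 : n ≤ 1 := hmin 1 le_rfl (by
          rw [pow_one]
          rcases hr.out.eq_two_or_odd with h | h
          · exact absurd h.symm hpr
          · omega)
        rw [hd]
        exact Nat.pow_le_pow_right hr.out.pos (by rw [zero_add, pow_one]; omega)
      · -- no such group
        exfalso
        obtain ⟨a, haE, hac⟩ : ∃ a ∈ E, a ∉ centralizer (E : Set G) := by
          by_contra h
          push Not at h
          have : Nat.card E ≤ Nat.card Z := Nat.le_of_dvd Nat.card_pos (card_dvd_of_le (le_inf le_rfl h))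
          have hpos : 0 < Nat.card Z := Nat.card_pos
          nlinarith
        set Ca := E ⊓ centralizer ({a} : Set G) with hCa
        obtain ⟨b, hb, hbZ, hbaZ⟩ : ∃ b ∈ Ca, b ∉ Z ∧ a * b ∉ Z := by
          by_contra h
          push Not at h
          have hsub : Ca ≤ Z ⊔ zpowers a := by
            intro b hb
            by_cases hbZ : b ∈ Z
            · exact mem_sup_left hbZ
            · have := h b hb hbZ
              have h' : a⁻¹ * (a * b) ∈ Z ⊔ zpowers a := mul_mem (mem_sup_right (inv_mem (mem_zpowers a))) (mem_sup_left this)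
              simpa using h'
          have hc1 : Nat.card ↥(Z ⊔ zpowers a : Subgroup G) ≤ Nat.card Z * 2 := by
            have hsub' : ∀ u ∈ Z ⊔ zpowers a, u ∈ Z ∨ u * a⁻¹ ∈ Z := by
              have haa : a * a ∈ Z := by
                refine ⟨mul_mem haE haE, mem_centralizer_iff.mpr fun e he => (hcz e he _ ?_).eq⟩
                simpa [pow_two] using hpow a haE
              intro u hu
              rw [zpowers_eq_closure, ← closure_eq Z, ← closure_union] at hu
              refine closure_induction (p := fun u _ => u ∈ Z ∨ u * a⁻¹ ∈ Z) ?_ (Or.inl (one_mem _)) ?_ ?_ hu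
              · rintro u (hu | hu)
                · exact Or.inl hu
                · rw [Set.mem_singleton_iff.mp hu]; exact Or.inr (by rw [mul_inv_cancel]; exact one_mem _)
              · intro u v _ _ hu hv
                rcases hu with hu | hu <;> rcases hv with hv | hv
                · exact Or.inl (mul_mem hu hv)
                · exact Or.inr (by rw [mul_assoc]; exact mul_mem hu hv)
                · right
                  have hcom : v * a⁻¹ = a⁻¹ * v :=
                    (Commute.inv_left (mem_centralizer_iff.mp hv.2 a haE : Commute a v)).eq.symm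
                  rw [mul_assoc, hcom, ← mul_assoc]; exact mul_mem hu hv
                · left
                  have hcom : a * (v * a⁻¹) = v * a⁻¹ * a := mem_centralizer_iff.mp hv.2 a haE
                  have e : u * v = (u * a⁻¹) * (v * a⁻¹) * (a * a) := by
                    calc u * v = (u * a⁻¹) * (a * (v * a⁻¹)) * a := by group
                      _ = _ := by rw [hcom]; group
                  rw [e]; exact mul_mem (mul_mem hu hv) haa
              · intro u _ hu
                rcases hu with hu | hu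
                · exact Or.inl (inv_mem hu)
                · right
                  have hcom : a * (u * a⁻¹)⁻¹ = (u * a⁻¹)⁻¹ * a := mem_centralizer_iff.mp (inv_mem hu).2 a haE
                  have e : u⁻¹ * a⁻¹ = (u * a⁻¹)⁻¹ * (a * a)⁻¹ := by
                    calc u⁻¹ * a⁻¹ = a⁻¹ * (a * u⁻¹) * a⁻¹ := by group
                      _ = a⁻¹ * (u * a⁻¹)⁻¹ * a⁻¹ := by group
                      _ = a⁻¹ * ((u * a⁻¹)⁻¹ * a) * (a * a)⁻¹ := by group
                      _ = _ := by rw [← hcom]; group
                  rw [e]; exact mul_mem (inv_mem hu) (inv_mem haa)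
            classical
            let f : ↥(Z ⊔ zpowers a : Subgroup G) → ↥Z × Bool := fun u =>
              if h : (u : G) ∈ Z then (⟨u, h⟩, true) else (⟨(u : G) * a⁻¹, (hsub' u u.2).resolve_left h⟩, false)
            have hf : Function.Injective f := by
              classical
              intro u v huv
              simp only [f] at huv
              split_ifs at huv with h1 h2
              · simpa using congrArg (fun q : ↥Z × Bool => (q.1 : G)) huv |> Subtype.ext
              · exact absurd (congrArg Prod.snd huv) (by simp)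
              · exact absurd (congrArg Prod.snd huv) (by simp)
              · exact Subtype.ext (mul_right_cancel (congrArg (fun q : ↥Z × Bool => (q.1 : G)) huv))
            refine (Nat.card_le_card_of_injective f hf).trans (le_of_eq ?_)
            rw [Nat.card_prod]; simp
          have h3 := hhom a haE
          have h4 : Nat.card Ca ≤ Nat.card Z * 2 :=
            (Nat.le_of_dvd Nat.card_pos (card_dvd_of_le hsub)).trans hc1
          have h5 : 2 ^ (2 * (w + 1)) * Nat.card Z ≤ 2 * (Nat.card Z * 2) :=
            hidx.trans (h3.trans (Nat.mul_le_mul_left _ h4))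
          have h6 : 16 ≤ 2 ^ (2 * (w + 1)) :=
            le_trans (by norm_num : 16 ≤ 2 ^ 4) (Nat.pow_le_pow_right (by norm_num) (by omega))
          have hpos : 0 < Nat.card Z := Nat.card_pos
          nlinarith
        obtain ⟨hbE, hba⟩ := hb
        have hsq : ∀ e ∈ E, e ∉ Z → e * e = z := by
          intro e he heZ
          refine ((hzsq _ (by simpa [pow_two] using hpow e he)).resolve_left fun h1 => heZ ⟨he, hex e he ?_⟩)
          rw [pow_two]; exact h1
        have hcab : b * a = a * b := mem_centralizer_singleton_iff.mp hba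
        have h1 : a * b * (a * b) = a * a * (b * b) := by
          calc a * b * (a * b) = a * (b * a) * b := by group
            _ = _ := by rw [hcab]; group
        have haZ : a ∉ Z := fun h => hac h.2
        rw [hsq _ (mul_mem haE hbE) hbaZ, hsq a haE haZ, hsq b hbE hbZ] at h1
        exact hz1 (mul_left_cancel (h1.symm.trans (mul_one z).symm))

end Cfsg.Agent.H74.EspecAct
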