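import Cfsg.Agent.H74.SylowChain

/-!
Normalizer functors: regular subgroups and control of Sylow intersections.
-/

set_option autoImplicit false

namespace Cfsg.Agent.H74

open Subgroup
open scoped Pointwise

variable {G : Type*} [Group G] [Finite G] {p : ℕ} [Fact p.Prime]

/-- A Sylow subgroup of a subgroup, mapped to the group. -/
theorem not_dvd_relIndex_map {M : Subgroup G} (A : Sylow p M) :
    ¬ p ∣ ((A : Subgroup M).map M.subtype).relIndex M := by
  rw [relIndex, subgroupOf, comap_map_eq_self_of_injective M.subtype_injective]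
  exact A.not_dvd_index

/-- The image of a Sylow subgroup under an isomorphism. -/
noncomputable def mapSyl {H : Type*} [Group H] (e : G ≃* H) (S : Sylow p G) : Sylow p H :=
  S.mapSurjective (f := e.toMonoidHom) e.surjective

theorem mapSyl_coe {H : Type*} [Group H] (e : G ≃* H) (S : Sylow p G) :
    (mapSyl e S : Subgroup H) = (S : Subgroup G).map e.toMonoidHom := rfl

theorem linked_map {H : Type*} [Group H] [Finite H] (e : G ≃* H) {𝓕 : Set (Subgroup G)} {𝓕' : Set (Subgroup H)}
    (h𝓕 : ∀ X ∈ 𝓕, X.map e.toMonoidHom ∈ 𝓕') {D : Subgroup G} {S T : Sylow p G} (h : Linked 𝓕 D S T) :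
    Linked 𝓕' (D.map e.toMonoidHom) (mapSyl e S)
      (mapSyl e T) := by
  refine Relation.ReflTransGen.lift (fun A : Sylow p G => mapSyl e A) ?_ _ _ h
  intro A B ⟨X, x, hXA, hXB, hx, hconj, hD⟩
  show ChainStep 𝓕' (D.map e.toMonoidHom) (mapSyl e A)
    (mapSyl e B)
  rw [mem_sylowMembers_iff A.isPGroup'] at hXA
  rw [mem_sylowMembers_iff B.isPGroup'] at hXB
  refine ⟨X.map e.toMonoidHom, e x, ?_, ?_, ⟨x, hx, rfl⟩, ?_, ?_⟩
  · rw [mem_sylowMembers_iff (Sylow.isPGroup' _)]
    refine ⟨h𝓕 X hXA.1, ?_⟩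
    rw [mapSyl_coe, relIndex_map_map_of_injective _ _ e.injective]
    exact hXA.2
  · rw [mem_sylowMembers_iff (Sylow.isPGroup' _)]
    refine ⟨h𝓕 X hXB.1, ?_⟩
    rw [mapSyl_coe, relIndex_map_map_of_injective _ _ e.injective]
    exact hXB.2
  · rw [mapSyl_coe, mapSyl_coe, ← hconj, Cfsg.subgroupConjRight,
      Cfsg.subgroupConjRight, map_map, map_map]
    congr 1
    ext z
    simp
  · rw [mapSyl_coe, ← map_inf_eq _ _ _ e.injective]
    exact map_mono hD

variable {f : Subgroup G → Set (Subgroup G)}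

theorem functor_conj (hf : Cfsg.IsNormalizerFunctor p f) {P F : Subgroup G} (hP : IsPGroup p P)
    (hF : F ∈ f P) (g : G) :
    F.map (MulAut.conj g).toMonoidHom ∈ f (P.map (MulAut.conj g).toMonoidHom) := by
  rw [(hf P hP).2 g]
  exact ⟨F, hF, rfl⟩

/-- The normalizer of a functor value at a Sylow subgroup belongs to the family of the whole group. -/
theorem normalizer_mem_family (P : Sylow p G) {F : Subgroup G} (hF : F ∈ f (P : Subgroup G)) :
    normalizer (F : Set G) ∈ Cfsg.functorFamily p f ⊤ := by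
  refine ⟨P.subtype le_top, F, ?_, top_inf_eq _ |>.symm⟩
  rwa [Sylow.coe_subtype, subgroupOf_map_subtype, inf_top_eq]

theorem family_top_spec {X : Subgroup G} (hX : X ∈ Cfsg.functorFamily p f ⊤) :
    ∃ P : Sylow p G, ∃ F ∈ f (P : Subgroup G), X = normalizer (F : Set G) := by
  obtain ⟨P, F, hF, rfl⟩ := hX
  exact ⟨P.mapSurjective (f := (⊤ : Subgroup G).subtype) (fun x => ⟨⟨x, mem_top x⟩, rfl⟩), F, hF, top_inf_eq _⟩

theorem family_top_normal (hf : Cfsg.IsNormalizerFunctor p f) {X : Subgroup G}
    (hX : X ∈ Cfsg.functorFamily p f ⊤) (g : G) :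
    X.map (MulAut.conj g).toMonoidHom ∈ Cfsg.functorFamily p f ⊤ := by
  obtain ⟨P, F, hF, rfl⟩ := family_top_spec hX
  have h1 : F.map (MulAut.conj g).toMonoidHom ∈ f ((g • P : Sylow p G) : Subgroup G) :=
    functor_conj hf P.isPGroup' hF g
  have h2 := normalizer_mem_family _ h1
  convert h2 using 1
  exact map_equiv_normalizer_eq F (MulAut.conj g)

/-- Transfer of a chain inside a regular subgroup: each link is handled by `hstep`. -/
theorem regular_linked {M : Subgroup G} (hreg : Cfsg.IsFunctorRegular p f M) {D : Subgroup G} (hDM : D ≤ M)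
    (hD : D ≠ ⊥) {𝓖 : Set (Subgroup G)}
    (hrefl : ∀ (A : Sylow p M) (S T : Sylow p G), D ≤ (A : Subgroup M).map M.subtype →
      (A : Subgroup M).map M.subtype ≤ (S : Subgroup G) → (A : Subgroup M).map M.subtype ≤ (T : Subgroup G) →
        Linked 𝓖 D S T)
    (hstep : ∀ (A B : Sylow p M) (F : Subgroup G) (P : Sylow p M) (x : G) (S : Sylow p G),
      F ∈ f ((P : Subgroup M).map M.subtype) → x ∈ M → x ∈ normalizer (F : Set G) →
      D ≤ (A : Subgroup M).map M.subtype → D ≤ (B : Subgroup M).map M.subtype →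
      ¬ p ∣ ((A : Subgroup M).map M.subtype).relIndex (M ⊓ normalizer (F : Set G)) →
      ¬ p ∣ ((B : Subgroup M).map M.subtype).relIndex (M ⊓ normalizer (F : Set G)) →
      (B : Subgroup M).map M.subtype = ((A : Subgroup M).map M.subtype).map (MulAut.conj x).toMonoidHom →
      D ≤ M ⊓ normalizer (F : Set G) →
      (A : Subgroup M).map M.subtype ≤ (S : Subgroup G) →
        ∃ T : Sylow p G, (B : Subgroup M).map M.subtype ≤ (T : Subgroup G) ∧ Linked 𝓖 D S T)
    (A B : Sylow p M) (hA : D ≤ (A : Subgroup M).map M.subtype) (hB : D ≤ (B : Subgroup M).map M.subtype)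
    (S T : Sylow p G) (hAS : (A : Subgroup M).map M.subtype ≤ (S : Subgroup G))
    (hBT : (B : Subgroup M).map M.subtype ≤ (T : Subgroup G)) : Linked 𝓖 D S T := by
  have hD0 : D.subgroupOf M ≠ ⊥ := fun h => hD (by
    rw [← inf_eq_left.mpr hDM, ← subgroupOf_map_subtype, h, Subgroup.map_bot])
  have hsub : ∀ C : Sylow p M, D ≤ (C : Subgroup M).map M.subtype → D.subgroupOf M ≤ (C : Subgroup M) := by
    intro C hC
    exact (comap_mono hC).trans (comap_map_eq_self_of_injective M.subtype_injective _).le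
  have hl := controls_iff.mp hreg _ A B hD0 (hsub A hA) (hsub B hB)
  have key : ∀ C : Sylow p M, Linked ((fun X : Subgroup G => X.subgroupOf M) '' Cfsg.functorFamily p f M)
      (D.subgroupOf M) A C → D ≤ (C : Subgroup M).map M.subtype ∧
        ∃ U : Sylow p G, (C : Subgroup M).map M.subtype ≤ (U : Subgroup G) ∧ Linked 𝓖 D S U := by
    intro C hC
    induction hC with
    | refl => exact ⟨hA, S, hAS, Relation.ReflTransGen.refl⟩
    | tail _ hs ih =>
      rename_i A' B' _
      obtain ⟨hDA', U, hU, hSU⟩ := ih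
      obtain ⟨X, x, hXA, hXB, hx, hconj, hDB⟩ := hs
      obtain ⟨⟨Y, ⟨P, F, hF, hY⟩, hX⟩, hXA⟩ := (mem_sylowMembers_iff A'.isPGroup').mp hXA
      obtain ⟨-, hXB⟩ := (mem_sylowMembers_iff B'.isPGroup').mp hXB
      simp only at hX
      subst hY
      subst hX
      have hidx : ∀ C : Sylow p M, ¬ p ∣ (C : Subgroup M).relIndex ((M ⊓ normalizer (F : Set G)).subgroupOf M) →
          ¬ p ∣ ((C : Subgroup M).map M.subtype).relIndex (M ⊓ normalizer (F : Set G)) := by
        intro C hC
        have e := relIndex_map_map_of_injective (C : Subgroup M) ((M ⊓ normalizer (F : Set G)).subgroupOf M)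
          M.subtype_injective
        rw [map_subgroupOf_eq_of_le (inf_le_left)] at e
        rwa [e]
      have hDB' : D ≤ (B' : Subgroup M).map M.subtype ⊓ (M ⊓ normalizer (F : Set G)) := by
        intro d hd
        have := hDB (mem_subgroupOf.mpr hd : (⟨d, hDM hd⟩ : M) ∈ D.subgroupOf M)
        exact ⟨⟨_, this.1, rfl⟩, mem_subgroupOf.mp this.2⟩
      have hBx : (B' : Subgroup M).map M.subtype =
          ((A' : Subgroup M).map M.subtype).map (MulAut.conj (x : G)).toMonoidHom := by
        rw [← smul_eq_of_subgroupConjRight hconj, map_conj_eq_smul, map_map, map_map]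
        congr 1
      obtain ⟨V, hV, hUV⟩ := hstep A' B' F P x U hF x.2 (mem_subgroupOf.mp hx).2 hDA'
        (hDB'.trans inf_le_left) (hidx A' hXA) (hidx B' hXB) hBx (hDB'.trans inf_le_right) hU
      exact ⟨hDB'.trans inf_le_left, V, hV, hSU.trans hUV⟩
  obtain ⟨-, U, hU, hSU⟩ := key B hl
  exact hSU.trans (hrefl B U T hB hU hBT)

/-- A Sylow subgroup of the intersection with the normalizer of a functor value lies in that normalizer. -/
theorem sylow_le_normalizer (hf : Cfsg.IsNormalizerFunctor p f) {M F : Subgroup G} (A P : Sylow p M)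
    (hF : F ∈ f ((P : Subgroup M).map M.subtype))
    (hidx : ¬ p ∣ ((A : Subgroup M).map M.subtype).relIndex (M ⊓ normalizer (F : Set G))) :
    (A : Subgroup M).map M.subtype ≤ normalizer (F : Set G) := by
  refine (le_of_sylow_card_le (P := (P : Subgroup M).map M.subtype) (A.isPGroup'.map _) (P.isPGroup'.map _) ?_ hidx ?_).trans inf_le_right
  · exact le_inf (map_subtype_le _) (le_normalizer.trans ((hf _ (P.isPGroup'.map _)).1 F hF).2)
  · rw [Nat.card_congr ((A : Subgroup M).equivMapOfInjective _ M.subtype_injective).toEquiv.symm,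
      Nat.card_congr ((P : Subgroup M).equivMapOfInjective _ M.subtype_injective).toEquiv.symm,
      Sylow.card_eq_multiplicity, Sylow.card_eq_multiplicity]

/-- Regular members of a factorization: the chain step for a subgroup containing a Sylow subgroup. -/
theorem linked_in_sylow_overgroup (hf : Cfsg.IsNormalizerFunctor p f) {M : Subgroup G}
    (hreg : Cfsg.IsFunctorRegular p f M) {D : Subgroup G} (hD : D ≠ ⊥) (S T : Sylow p G)
    (hS : (S : Subgroup G) ≤ M) (hT : (T : Subgroup G) ≤ M) (hDS : D ≤ (S : Subgroup G))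
    (hDT : D ≤ (T : Subgroup G)) : Linked (Cfsg.functorFamily p f ⊤) D S T := by
  have hcard : ∀ (C : Sylow p M) (U : Sylow p G), (C : Subgroup M).map M.subtype ≤ (U : Subgroup G) →
      (C : Subgroup M).map M.subtype = (U : Subgroup G) := by
    intro C U hCU
    refine eq_of_le_of_card_ge hCU ?_
    have h1 : Nat.card ↥((S.subtype hS : Subgroup M)) = Nat.card (C : Subgroup M) := by
      rw [Sylow.card_eq_multiplicity, Sylow.card_eq_multiplicity]
    rw [Nat.card_congr ((C : Subgroup M).equivMapOfInjective _ M.subtype_injective).toEquiv.symm, ← h1,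
      Sylow.coe_subtype, Nat.card_congr (subgroupOfEquivOfLe hS).toEquiv,
      Sylow.card_eq_multiplicity, Sylow.card_eq_multiplicity]
  have hmap : ∀ (U : Sylow p G) (hU : (U : Subgroup G) ≤ M),
      ((U.subtype hU : Sylow p M) : Subgroup M).map M.subtype = (U : Subgroup G) := fun U hU => by
    rw [Sylow.coe_subtype, map_subgroupOf_eq_of_le hU]
  refine regular_linked hreg (hDS.trans hS) hD ?_ ?_ (S.subtype hS) (T.subtype hT) (by rwa [hmap])
    (by rwa [hmap]) S T (hmap S hS).le (hmap T hT).le
  · intro A U V _ hU hV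
    rw [show U = V from Sylow.ext ((hcard A U hU).symm.trans (hcard A V hV))]
    exact Relation.ReflTransGen.refl
  · intro A B F P x U hF hxM hxF hDA hDB hA hB hBA hDY hU
    have hUeq := hcard A U hU
    refine ⟨x • U, ?_, Relation.ReflTransGen.single ?_⟩
    · rw [map_conj_eq_smul, ← hUeq, ← hBA]
    obtain ⟨V, hV⟩ := ((P.isPGroup'.map M.subtype)).exists_le_sylow
    have hVeq := hcard P V hV
    have hUN : (U : Subgroup G) ≤ normalizer (F : Set G) := hUeq ▸ sylow_le_normalizer hf A P hF hA
    have hxUN : ((x • U : Sylow p G) : Subgroup G) ≤ normalizer (F : Set G) := by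
      rw [map_conj_eq_smul]
      rintro _ ⟨u, hu, rfl⟩
      exact mul_mem (mul_mem hxF (hUN hu)) (inv_mem hxF)
    refine ⟨normalizer (F : Set G), x, ?_, ?_, hxF, subgroupConjRight_smul x U, ?_⟩
    · rw [mem_sylowMembers_iff U.isPGroup']
      exact ⟨normalizer_mem_family V (hVeq ▸ hF), fun h => U.not_dvd_index (h.trans (relIndex_dvd_index_of_le hUN))⟩
    · rw [mem_sylowMembers_iff (x • U).isPGroup']
      exact ⟨normalizer_mem_family V (hVeq ▸ hF),
        fun h => (x • U).not_dvd_index (h.trans (relIndex_dvd_index_of_le hxUN))⟩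
    · refine le_inf ?_ (hDY.trans inf_le_right)
      rw [map_conj_eq_smul, ← hUeq, ← hBA]
      exact hDB

/-- A factorization into two regular subgroups makes the group regular. -/
theorem regular_of_factorization (hf : Cfsg.IsNormalizerFunctor p f) (S₀ : Sylow p G) {G₁ G₂ : Subgroup G}
    (h₁ : (S₀ : Subgroup G) ≤ G₁) (h₂ : (S₀ : Subgroup G) ≤ G₂)
    (hprod : ∀ g : G, ∃ g₁ ∈ G₁, ∃ g₂ ∈ G₂, g = g₁ * g₂)
    (hr₁ : Cfsg.IsFunctorRegular p f G₁) (hr₂ : Cfsg.IsFunctorRegular p f G₂) :
    Cfsg.IsFunctorRegular p f ⊤ := by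
  have hmain : ∀ (D : Subgroup G) (S T : Sylow p G), D ≠ ⊥ → D ≤ (S : Subgroup G) → D ≤ (T : Subgroup G) →
      Linked (Cfsg.functorFamily p f ⊤) D S T := by
    -- first when the first Sylow subgroup is `S₀`
    have h0 : ∀ (D : Subgroup G) (T : Sylow p G), D ≠ ⊥ → D ≤ (S₀ : Subgroup G) → D ≤ (T : Subgroup G) →
        Linked (Cfsg.functorFamily p f ⊤) D S₀ T := by
      intro D T hD hDS hDT
      obtain ⟨g, rfl⟩ := MulAction.exists_smul_eq G S₀ T
      obtain ⟨a, ha, b, hb, rfl⟩ := hprod g
      have hbS : ((b • S₀ : Sylow p G) : Subgroup G) ≤ G₂ := by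
        rw [map_conj_eq_smul]
        rintro _ ⟨s, hs, rfl⟩
        exact mul_mem (mul_mem hb (h₂ hs)) (inv_mem hb)
      have hD2 : D ≤ G₂.map (MulAut.conj a).toMonoidHom := by
        rw [mul_smul, map_conj_eq_smul] at hDT
        exact hDT.trans (map_mono hbS)
      obtain ⟨U, hDU, hU⟩ := exists_sylow_inside_factorization S₀ h₁ h₂ ha
        (S₀.isPGroup'.to_le hDS) (hDS.trans h₁) hD2
      refine (linked_in_sylow_overgroup hf hr₁ hD S₀ U h₁ (hU.trans inf_le_left) hDS hDU).trans ?_
      set D' := D.map (MulAut.conj a⁻¹).toMonoidHom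
      have hback : ∀ X : Subgroup G, (X.map (MulAut.conj a⁻¹).toMonoidHom).map (MulAut.conj a).toMonoidHom = X := by
        intro X
        rw [map_conj_map_conj, mul_inv_cancel]
        ext z; simp
      have hl : Linked (Cfsg.functorFamily p f ⊤) D' (a⁻¹ • U) (b • S₀) := by
        refine linked_in_sylow_overgroup hf hr₂ (fun h => hD ?_) _ _ ?_ hbS ?_ ?_
        · exact (map_eq_bot_iff_of_injective D (MulAut.conj a⁻¹).injective).mp h
        · rw [map_conj_eq_smul]
          refine (map_mono (hU.trans inf_le_right)).trans ?_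
          rw [map_conj_map_conj, inv_mul_cancel]
          intro z hz
          obtain ⟨w, hw, rfl⟩ := hz
          simpa using hw
        · rw [map_conj_eq_smul]
          exact map_mono hDU
        · have := map_mono (f := (MulAut.conj a⁻¹).toMonoidHom) hDT
          rw [map_conj_eq_smul, map_conj_map_conj, inv_mul_cancel_left] at this
          rw [map_conj_eq_smul]
          exact this
      have := linked_map (p := p) (MulAut.conj a) (fun X hX => family_top_normal hf hX a) hl
      rw [hback D] at this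
      have e : ∀ V : Sylow p G, mapSyl (MulAut.conj a) V = a • V :=
        fun V => Sylow.ext rfl
      rw [e, e, smul_inv_smul, smul_smul] at this
      exact this
    intro D S T hD hDS hDT
    obtain ⟨g, rfl⟩ := MulAction.exists_smul_eq G S₀ S
    have hl := h0 (D.map (MulAut.conj g⁻¹).toMonoidHom) (g⁻¹ • T)
      (fun h => hD ((map_eq_bot_iff_of_injective D (MulAut.conj g⁻¹).injective).mp h))
      (by
        have := map_mono (f := (MulAut.conj g⁻¹).toMonoidHom) hDS
        rw [map_conj_eq_smul, map_conj_map_conj, inv_mul_cancel] at this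
        refine this.trans ?_
        rintro z ⟨w, hw, rfl⟩
        simp only [MulEquiv.coe_toMonoidHom, map_one, MulAut.one_apply]
        exact hw)
      (map_mono hDT)
    have := linked_map (p := p) (MulAut.conj g) (fun X hX => family_top_normal hf hX g) hl
    rw [map_conj_map_conj, mul_inv_cancel] at this
    have e : ∀ V : Sylow p G, mapSyl (MulAut.conj g) V = g • V :=
      fun V => Sylow.ext rfl
    rw [e, e, smul_inv_smul] at this
    refine Linked.mono (fun d hd => ?_) this
    exact ⟨d, hd, by simp⟩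
  -- transfer to the subgroup `⊤`
  refine controls_iff.mpr fun D S T hD hDS hDT => ?_
  set e : ↥(⊤ : Subgroup G) ≃* G := Subgroup.topEquiv
  have hl := hmain (D.map e.toMonoidHom) (mapSyl e S)
    (mapSyl e T)
    (fun h => hD ((map_eq_bot_iff_of_injective D e.injective).mp h)) (map_mono hDS) (map_mono hDT)
  have h2 := linked_map (p := p) e.symm
    (𝓕' := (fun X : Subgroup G => X.subgroupOf ⊤) '' Cfsg.functorFamily p f ⊤)
    (fun X hX => ⟨X, hX, by
      ext z
      refine ⟨fun hz => ⟨(z : G), mem_subgroupOf.mp hz, Subtype.ext rfl⟩, ?_⟩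
      rintro ⟨x, hx, rfl⟩
      exact hx⟩) hl
  have hid : ∀ X : Subgroup ↥(⊤ : Subgroup G), (X.map e.toMonoidHom).map e.symm.toMonoidHom = X := fun X => by
    rw [map_map]; ext z; simp
  rw [hid] at h2
  convert h2 using 1 <;> exact Sylow.ext (hid _).symm

/-- Functor normalizers together with singular maximal `p`-locals control Sylow intersections. -/
theorem functor_singular_control (hf : Cfsg.IsNormalizerFunctor p f)
    (hf1 : ∀ P : Subgroup G, IsPGroup p P → P ≠ ⊥ → ∀ F ∈ f P, F ≠ ⊥) :
    Cfsg.ControlsSylowIntersections p (Cfsg.functorFamily p f ⊤ ∪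
      {M | Cfsg.IsMaximalPLocal p M ∧ ¬ Cfsg.IsFunctorRegular p f M}) := by
  set 𝓖 := Cfsg.functorFamily p f ⊤ ∪ {M | Cfsg.IsMaximalPLocal p M ∧ ¬ Cfsg.IsFunctorRegular p f M} with h𝓖
  have hlocal : ∀ N : Subgroup G, Cfsg.IsPLocal p N → ∃ M, N ≤ M ∧ Cfsg.IsMaximalPLocal p M := by
    intro N hN
    obtain ⟨M, hNM, hM⟩ := Finite.exists_le_maximal (α := Subgroup G) (p := fun X => Cfsg.IsPLocal p X) hN
    exact ⟨M, hNM, hM.prop, fun X hX hMX => le_antisymm (hM.le_of_ge hX hMX) hMX⟩
  rw [controls_iff]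
  suffices h : ∀ (m : ℕ) (D : Subgroup G), Nat.card G - Nat.card D = m → ∀ S T : Sylow p G, D ≠ ⊥ →
      D ≤ (S : Subgroup G) → D ≤ (T : Subgroup G) → Linked 𝓖 D S T from
    fun D S T hD hS hT => h _ D rfl S T hD hS hT
  intro m
  induction m using Nat.strong_induction_on with
  | _ m ih =>
  intro D hm S T hD hDS hDT
  -- Sylow subgroups sharing a larger subgroup are linked
  have big : ∀ (U V : Sylow p G) (Q : Subgroup G), D ≤ Q → Nat.card D < Nat.card Q →
      Q ≤ (U : Subgroup G) → Q ≤ (V : Subgroup G) → Linked 𝓖 D U V := by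
    intro U V Q hDQ hlt hQU hQV
    have hQG : Nat.card Q ≤ Nat.card G := Nat.le_of_dvd Nat.card_pos (card_subgroup_dvd_card Q)
    refine Linked.mono hDQ (ih _ (by omega) Q rfl U V ?_ hQU hQV)
    intro h; exact hD (le_bot_iff.mp (h ▸ hDQ))
  have claim : ∀ (k : ℕ) (M : Subgroup G), Cfsg.IsMaximalPLocal p M → ∀ A B : Sylow p M,
      Nat.card G - Nat.card (A : Subgroup M) = k → Nat.card D < Nat.card (A : Subgroup M) →
      D ≤ (A : Subgroup M).map M.subtype → D ≤ (B : Subgroup M).map M.subtype →
      ∀ U V : Sylow p G, (A : Subgroup M).map M.subtype ≤ (U : Subgroup G) →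
        (B : Subgroup M).map M.subtype ≤ (V : Subgroup G) → Linked 𝓖 D U V := by
    intro k
    induction k using Nat.strong_induction_on with
    | _ k ihk =>
    intro M hM A B hk hlt hDA hDB U V hAU hBV
    have hc : ∀ C : Sylow p M, Nat.card ↥((C : Subgroup M).map M.subtype) = Nat.card (A : Subgroup M) := fun C => by
      rw [Nat.card_congr ((C : Subgroup M).equivMapOfInjective _ M.subtype_injective).toEquiv.symm,
        Sylow.card_eq_multiplicity, Sylow.card_eq_multiplicity]
    have hshare : ∀ (C : Sylow p M) (U' V' : Sylow p G), D ≤ (C : Subgroup M).map M.subtype →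
        (C : Subgroup M).map M.subtype ≤ (U' : Subgroup G) →
        (C : Subgroup M).map M.subtype ≤ (V' : Subgroup G) → Linked 𝓖 D U' V' :=
      fun C U' V' h h' h'' => big U' V' _ h (hc C ▸ hlt) h' h''
    by_cases hreg : Cfsg.IsFunctorRegular p f M
    · refine regular_linked hreg (hDA.trans (map_subtype_le _)) hD hshare ?_ A B hDA hDB U V hAU hBV
      intro A' B' F P x U' hF hxM hxF hDA' hDB' hA' hB' hBA hDY hU'
      set PG := (P : Subgroup M).map M.subtype with hPG
      have hA'N := sylow_le_normalizer hf A' P hF hA'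
      have hB'N := sylow_le_normalizer hf B' P hF hB'
      by_cases hPS : ∃ W : Sylow p G, (W : Subgroup G) = PG
      · obtain ⟨W, hW⟩ := hPS
        have hcardU : Nat.card (U' : Subgroup G) = Nat.card ↥((A' : Subgroup M).map M.subtype) := by
          rw [hc, ← hc P, ← hPG, ← hW, Sylow.card_eq_multiplicity, Sylow.card_eq_multiplicity]
        have hUeq : (A' : Subgroup M).map M.subtype = (U' : Subgroup G) :=
          eq_of_le_of_card_ge hU' hcardU.le
        refine ⟨x • U', ?_, Relation.ReflTransGen.single ?_⟩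
        · rw [map_conj_eq_smul, ← hUeq, ← hBA]
        refine ⟨normalizer (F : Set G), x, ?_, ?_, hxF, subgroupConjRight_smul x U', ?_⟩
        · rw [mem_sylowMembers_iff U'.isPGroup']
          exact ⟨Or.inl (normalizer_mem_family W (hW ▸ hF)),
            fun h => U'.not_dvd_index (h.trans (relIndex_dvd_index_of_le (hUeq ▸ hA'N)))⟩
        · rw [mem_sylowMembers_iff (x • U').isPGroup']
          refine ⟨Or.inl (normalizer_mem_family W (hW ▸ hF)),
            fun h => (x • U').not_dvd_index (h.trans (relIndex_dvd_index_of_le ?_))⟩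
          rw [map_conj_eq_smul, ← hUeq, ← hBA]
          exact hB'N
        · refine le_inf ?_ (hDY.trans inf_le_right)
          rw [map_conj_eq_smul, ← hUeq, ← hBA]
          exact hDB'
      · have hPp : IsPGroup p PG := P.isPGroup'.map _
        obtain ⟨W, hW⟩ := hPp.exists_le_sylow
        have hlt' : PG < (W : Subgroup G) := lt_of_le_of_ne hW fun h => hPS ⟨W, h.symm⟩
        set R := (W : Subgroup G) ⊓ normalizer (PG : Set G) with hR
        have hPR : PG < R := H22.lt_inf_normalizer_of_lt W.isPGroup' hlt'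
        obtain ⟨hFP, hFN⟩ := (hf PG hPp).1 F hF
        have hPne : PG ≠ ⊥ := by
          intro h
          have h1 := hc P
          rw [← hPG, h, Subgroup.card_bot] at h1
          have := Nat.card_pos (α := D)
          omega
        have hloc : Cfsg.IsPLocal p (normalizer (F : Set G)) :=
          ⟨F, hPp.to_le hFP, hf1 PG hPp hPne F hF, rfl⟩
        obtain ⟨M', hNM', hM'⟩ := hlocal _ hloc
        obtain ⟨R', hRR', hR'M, hR'p, -⟩ := exists_sylow_above ((inf_le_right.trans hFN).trans hNM' : R ≤ M')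
          (W.isPGroup'.to_le inf_le_left)
        obtain ⟨C, hC⟩ := ((A'.isPGroup'.map M.subtype).comap_subtype (K := M')).exists_le_sylow
        obtain ⟨C', hC'⟩ := ((B'.isPGroup'.map M.subtype).comap_subtype (K := M')).exists_le_sylow
        have hAC : (A' : Subgroup M).map M.subtype ≤ (C : Subgroup M').map M'.subtype := fun u hu =>
          ⟨⟨u, hNM' (hA'N hu)⟩, hC (mem_subgroupOf.mpr hu), rfl⟩
        have hBC : (B' : Subgroup M).map M.subtype ≤ (C' : Subgroup M').map M'.subtype := fun u hu =>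
          ⟨⟨u, hNM' (hB'N hu)⟩, hC' (mem_subgroupOf.mpr hu), rfl⟩
        obtain ⟨U₁, hU₁⟩ := (C.isPGroup'.map M'.subtype).exists_le_sylow
        obtain ⟨V₁, hV₁⟩ := (C'.isPGroup'.map M'.subtype).exists_le_sylow
        refine ⟨V₁, hBC.trans hV₁, (hshare A' U' U₁ hDA' hU' (hAC.trans hU₁)).trans ?_⟩
        have hbig : Nat.card (A : Subgroup M) < Nat.card (C : Subgroup M') := by
          have h1 : Nat.card PG < Nat.card R :=
            lt_of_le_of_ne (Nat.le_of_dvd Nat.card_pos (card_dvd_of_le hPR.le))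
              fun h => hPR.ne (eq_of_le_of_card_ge hPR.le h.ge)
          have h2 : Nat.card R ≤ Nat.card (C : Subgroup M') := by
            refine (Nat.le_of_dvd Nat.card_pos (card_dvd_of_le hRR')).trans ?_
            rw [← Nat.card_congr (subgroupOfEquivOfLe hR'M).toEquiv]
            obtain ⟨C'', hC''⟩ := (hR'p.comap_subtype (K := M')).exists_le_sylow
            refine (Nat.le_of_dvd Nat.card_pos (card_dvd_of_le hC'')).trans (le_of_eq ?_)
            rw [Sylow.card_eq_multiplicity, Sylow.card_eq_multiplicity]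
          rw [hPG, hc P] at h1
          omega
        have hCG : Nat.card (C : Subgroup M') ≤ Nat.card G := by
          rw [Nat.card_congr ((C : Subgroup M').equivMapOfInjective _ M'.subtype_injective).toEquiv]
          exact Nat.le_of_dvd Nat.card_pos (card_subgroup_dvd_card _)
        exact ihk _ (by omega) M' hM' C C' rfl (hlt.trans hbig) (hDA'.trans hAC) (hDB'.trans hBC)
          U₁ V₁ hU₁ hV₁
    · -- `M` itself is in the family
      obtain ⟨g, hg⟩ := MulAction.exists_smul_eq M A B
      have hBA : (B : Subgroup M).map M.subtype =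
          ((A : Subgroup M).map M.subtype).map (MulAut.conj (g : G)).toMonoidHom := by
        rw [← hg, map_conj_eq_smul, map_map, map_map]
        congr 1
      have hidx : ¬ p ∣ (U : Subgroup G).relIndex M := fun h =>
        not_dvd_relIndex_map A (h.trans (relIndex_dvd_of_le_left M hAU))
      have hgU : (B : Subgroup M).map M.subtype ≤ (((g : G) • U : Sylow p G) : Subgroup G) := by
        rw [map_conj_eq_smul, hBA]
        exact map_mono hAU
      have hidx' : ¬ p ∣ (((g : G) • U : Sylow p G) : Subgroup G).relIndex M := fun h =>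
        not_dvd_relIndex_map B (h.trans (relIndex_dvd_of_le_left M hgU))
      refine Linked.trans (Relation.ReflTransGen.single ?_) (hshare B _ V hDB hgU hBV)
      refine ⟨M, g, ?_, ?_, g.2, subgroupConjRight_smul _ U, le_inf (hDB.trans hgU) (hDA.trans (map_subtype_le _))⟩
      · rw [mem_sylowMembers_iff U.isPGroup']
        exact ⟨Or.inr ⟨hM, hreg⟩, hidx⟩
      · rw [mem_sylowMembers_iff ((g : G) • U).isPGroup']
        exact ⟨Or.inr ⟨hM, hreg⟩, hidx'⟩
  by_cases hST : S = T
  · subst hST; exact Relation.ReflTransGen.refl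
  have hlt : ∀ U : Sylow p G, D ≤ (U : Subgroup G) → D < (U : Subgroup G) := by
    intro U hDU
    refine lt_of_le_of_ne hDU fun h => hST ?_
    have e : ∀ W : Sylow p G, D ≤ (W : Subgroup G) → W = U := fun W hW =>
      Sylow.ext ((eq_of_le_of_card_ge (h ▸ hW) (by
        rw [Sylow.card_eq_multiplicity, Sylow.card_eq_multiplicity])).symm)
    rw [e S hDS, e T hDT]
  set NS := (S : Subgroup G) ⊓ normalizer (D : Set G) with hNS
  set NT := (T : Subgroup G) ⊓ normalizer (D : Set G) with hNT
  have hS1 : D < NS := H22.lt_inf_normalizer_of_lt S.isPGroup' (hlt S hDS)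
  have hT1 : D < NT := H22.lt_inf_normalizer_of_lt T.isPGroup' (hlt T hDT)
  have hcl : ∀ {Q : Subgroup G}, D < Q → Nat.card D < Nat.card Q := fun hQ =>
    lt_of_le_of_ne (Nat.le_of_dvd Nat.card_pos (card_dvd_of_le hQ.le)) fun h => hQ.ne (eq_of_le_of_card_ge hQ.le h.ge)
  obtain ⟨M, hNM, hM⟩ := hlocal _ ⟨D, S.isPGroup'.to_le hDS, hD, rfl⟩
  obtain ⟨A, hA⟩ := ((S.isPGroup'.to_le inf_le_left : IsPGroup p NS).comap_subtype (K := M)).exists_le_sylow
  obtain ⟨B, hB⟩ := ((T.isPGroup'.to_le inf_le_left : IsPGroup p NT).comap_subtype (K := M)).exists_le_sylow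
  have hNA : NS ≤ (A : Subgroup M).map M.subtype := fun u hu =>
    ⟨⟨u, hNM hu.2⟩, hA (mem_subgroupOf.mpr hu), rfl⟩
  have hNB : NT ≤ (B : Subgroup M).map M.subtype := fun u hu =>
    ⟨⟨u, hNM hu.2⟩, hB (mem_subgroupOf.mpr hu), rfl⟩
  obtain ⟨U, hU⟩ := (A.isPGroup'.map M.subtype).exists_le_sylow
  obtain ⟨V, hV⟩ := (B.isPGroup'.map M.subtype).exists_le_sylow
  refine (big S U NS hS1.le (hcl hS1) inf_le_left (hNA.trans hU)).trans (Linked.trans ?_
    (big V T NT hT1.le (hcl hT1) (hNB.trans hV) inf_le_left))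
  refine claim _ M hM A B rfl ?_ (hS1.le.trans hNA) (hT1.le.trans hNB) U V hU hV
  rw [Nat.card_congr ((A : Subgroup M).equivMapOfInjective _ M.subtype_injective).toEquiv]
  exact lt_of_lt_of_le (hcl hS1) (Nat.le_of_dvd Nat.card_pos (card_dvd_of_le hNA))

end Cfsg.Agent.H74
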