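import Mathlib
import Cfsg.Prelude.Def_SylowControl
import Cfsg.Prelude.Def_SylowChains
import Cfsg.Agent.H74.Isolated
import Cfsg.Agent.H22.Frobenius

/-!
Chains of Sylow subgroups and control of Sylow intersections.
-/

set_option autoImplicit false

namespace Cfsg.Agent.H74

open Subgroup
open scoped Pointwise

variable {G : Type*} [Group G] {p : ℕ}

/-- One link of a chain of Sylow subgroups for `D`. -/
def ChainStep (𝓕 : Set (Subgroup G)) (D : Subgroup G) (A B : Sylow p G) : Prop :=
  ∃ (X : Subgroup G) (x : G), X ∈ Cfsg.sylowMembers p 𝓕 (A : Subgroup G) ∧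
    X ∈ Cfsg.sylowMembers p 𝓕 (B : Subgroup G) ∧ x ∈ X ∧
    Cfsg.subgroupConjRight x (B : Subgroup G) = (A : Subgroup G) ∧ D ≤ (B : Subgroup G) ⊓ X

/-- Sylow subgroups joined by a chain for `D`. -/
def Linked (𝓕 : Set (Subgroup G)) (D : Subgroup G) (S T : Sylow p G) : Prop :=
  Relation.ReflTransGen (ChainStep 𝓕 D) S T

theorem Linked.mono {𝓕 : Set (Subgroup G)} {D D' : Subgroup G} {S T : Sylow p G} (h : D ≤ D')
    (hl : Linked 𝓕 D' S T) : Linked 𝓕 D S T :=
  Relation.ReflTransGen.mono (fun _ _ ⟨X, x, h1, h2, h3, h4, h5⟩ => ⟨X, x, h1, h2, h3, h4, h.trans h5⟩) _ _ hl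

theorem Linked.trans {𝓕 : Set (Subgroup G)} {D : Subgroup G} {S T U : Sylow p G}
    (h₁ : Linked 𝓕 D S T) (h₂ : Linked 𝓕 D T U) : Linked 𝓕 D S U :=
  Relation.ReflTransGen.trans h₁ h₂

theorem Linked.le_right {𝓕 : Set (Subgroup G)} {D : Subgroup G} {S T : Sylow p G}
    (h : Linked 𝓕 D S T) (hD : D ≤ (S : Subgroup G)) : D ≤ (T : Subgroup G) := by
  induction h with
  | refl => exact hD
  | tail _ hs _ =>
    obtain ⟨X, x, -, -, -, -, h5⟩ := hs
    exact h5.trans inf_le_left

theorem linked_iff {𝓕 : Set (Subgroup G)} {D : Subgroup G} {S T : Sylow p G} :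
    Linked 𝓕 D S T ↔ ∃ (n : ℕ) (c : Fin (n + 1) → Sylow p G) (X : Fin n → Subgroup G) (x : Fin n → G),
      c 0 = S ∧ c (Fin.last n) = T ∧
      ∀ i : Fin n,
        X i ∈ Cfsg.sylowMembers p 𝓕 (c i.castSucc : Subgroup G) ∧
        X i ∈ Cfsg.sylowMembers p 𝓕 (c i.succ : Subgroup G) ∧
        x i ∈ X i ∧ Cfsg.subgroupConjRight (x i) (c i.succ : Subgroup G) = (c i.castSucc : Subgroup G) ∧
        D ≤ (c i.succ : Subgroup G) ⊓ X i := by
  constructor
  · intro h
    induction h using Relation.ReflTransGen.head_induction_on with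
    | refl => exact ⟨0, fun _ => T, finZeroElim, finZeroElim, rfl, rfl, fun i => i.elim0⟩
    | head hs _ ih =>
      rename_i A B _
      obtain ⟨n, c, X, x, h0, hn, hi⟩ := ih
      obtain ⟨Y, y, hY⟩ := hs
      refine ⟨n + 1, Fin.cons A c, Fin.cons Y X, Fin.cons y x, rfl, ?_, ?_⟩
      · rw [← Fin.succ_last, Fin.cons_succ, hn]
      · intro i
        induction i using Fin.cases with
        | zero => simpa [h0] using hY
        | succ i => simpa [Fin.castSucc_succ] using hi i
  · rintro ⟨n, c, X, x, h0, hn, hi⟩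
    have key : ∀ i : Fin (n + 1), Linked 𝓕 D S (c i) := by
      intro i
      induction i using Fin.induction with
      | zero => rw [h0]; exact Relation.ReflTransGen.refl
      | succ i ih => exact ih.tail ⟨X i, x i, hi i⟩
    exact hn ▸ key _

theorem controls_iff {𝓕 : Set (Subgroup G)} : Cfsg.ControlsSylowIntersections p 𝓕 ↔
    ∀ (D : Subgroup G) (S T : Sylow p G), D ≠ ⊥ → D ≤ (S : Subgroup G) → D ≤ (T : Subgroup G) →
      Linked 𝓕 D S T := by
  constructor
  · intro h D S T hD hS hT
    by_cases hST : S = T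
    · subst hST; exact Relation.ReflTransGen.refl
    · exact Linked.mono (le_inf hS hT)
        (linked_iff.mpr (h S T hST (fun hb => hD (le_bot_iff.mp (hb ▸ le_inf hS hT)))))
  · intro h S T _ hne
    exact linked_iff.mp (h _ S T hne inf_le_left inf_le_right)

theorem mem_sylowMembers_iff [Finite G] [Fact p.Prime] {𝓕 : Set (Subgroup G)} {X S : Subgroup G}
    (hS : IsPGroup p S) : X ∈ Cfsg.sylowMembers p 𝓕 S ↔ X ∈ 𝓕 ∧ ¬ p ∣ S.relIndex X := by
  refine and_congr_right fun _ => ⟨?_, fun h => ?_⟩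
  · rintro ⟨P, hP⟩
    have : (P : Subgroup X) = S.subgroupOf X := by
      rw [← comap_map_eq_self_of_injective X.subtype_injective (P : Subgroup X), hP]
      exact inf_subgroupOf_right S X
    rw [relIndex, ← this]
    exact P.not_dvd_index
  · exact ⟨(hS.comap_subtype (K := X)).toSylow h, subgroupOf_map_subtype S X⟩

theorem map_conj_eq_smul (g : G) (S : Sylow p G) :
    ((g • S : Sylow p G) : Subgroup G) = (S : Subgroup G).map (MulAut.conj g).toMonoidHom := rfl

theorem map_conj_map_conj (a b : G) (X : Subgroup G) :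
    (X.map (MulAut.conj b).toMonoidHom).map (MulAut.conj a).toMonoidHom =
      X.map (MulAut.conj (a * b)).toMonoidHom := by
  rw [map_map]
  congr 1
  ext x
  simp [mul_assoc]

theorem smul_eq_of_subgroupConjRight {x : G} {A B : Sylow p G}
    (h : Cfsg.subgroupConjRight x (B : Subgroup G) = (A : Subgroup G)) : x • A = B := by
  refine Sylow.ext ?_
  rw [map_conj_eq_smul, ← h, Cfsg.subgroupConjRight, map_conj_map_conj, mul_inv_cancel]
  ext z
  simp

theorem subgroupConjRight_smul (x : G) (A : Sylow p G) :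
    Cfsg.subgroupConjRight x ((x • A : Sylow p G) : Subgroup G) = (A : Subgroup G) := by
  rw [map_conj_eq_smul, Cfsg.subgroupConjRight, map_conj_map_conj, inv_mul_cancel]
  ext z
  simp

theorem relIndex_map_conj (g : G) (A X : Subgroup G) :
    (A.map (MulAut.conj g).toMonoidHom).relIndex (X.map (MulAut.conj g).toMonoidHom) = A.relIndex X :=
  relIndex_map_map_of_injective A X (MulAut.conj g).injective

/-- Conjugates of members are members for the conjugate Sylow subgroup. -/
theorem members_conj [Finite G] [Fact p.Prime] {𝓕 : Set (Subgroup G)} (h𝓕 : Cfsg.IsNormalSet 𝓕)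
    (g : G) (S : Sylow p G) {X : Subgroup G} (hX : X ∈ Cfsg.sylowMembers p 𝓕 (S : Subgroup G)) :
    X.map (MulAut.conj g).toMonoidHom ∈ Cfsg.sylowMembers p 𝓕 ((g • S : Sylow p G) : Subgroup G) := by
  rw [mem_sylowMembers_iff S.isPGroup'] at hX
  rw [mem_sylowMembers_iff (g • S).isPGroup', map_conj_eq_smul, relIndex_map_conj]
  refine ⟨?_, hX.2⟩
  have := h𝓕 X hX.1 g⁻¹
  rwa [Cfsg.subgroupConjRight, inv_inv] at this

theorem conjRight_subset {g : G} {A : Set G} {X : Subgroup G} :
    Cfsg.conjRight g A ⊆ (X : Set G) ↔ A ⊆ (X.map (MulAut.conj g).toMonoidHom : Set G) := by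
  constructor
  · intro h a ha
    exact ⟨g⁻¹ * a * g, h ⟨a, ha, rfl⟩, by simp [mul_assoc]⟩
  · rintro h _ ⟨a, ha, rfl⟩
    obtain ⟨x, hx, rfl⟩ := h ha
    simpa [mul_assoc] using hx

theorem take_ofFn_snoc {n : ℕ} (y : Fin n → G) (b : G) (k : ℕ) (hk : k ≤ n) :
    ((List.ofFn (Fin.snoc y b : Fin (n + 1) → G)).take k).prod = ((List.ofFn y).take k).prod := by
  rw [List.ofFn_succ', List.concat_eq_append]
  simp only [Fin.snoc_castSucc]
  rw [List.take_append_of_le_length (by simpa using hk)]

theorem take_ofFn_succ {n : ℕ} (y : Fin n → G) (i : Fin n) :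
    ((List.ofFn y).take (i.val + 1)).prod = ((List.ofFn y).take i.val).prod * y i := by
  rw [List.prod_take_succ _ _ (by simp)]
  simp

/-- Control of Sylow intersections is the same as strong control of fusion. -/
theorem controls_iff_strong [Finite G] [Fact p.Prime] {𝓕 : Set (Subgroup G)} (h𝓕 : Cfsg.IsNormalSet 𝓕) :
    Cfsg.ControlsSylowIntersections p 𝓕 ↔ Cfsg.FamilyStronglyControlsFusion p 𝓕 := by
  rw [controls_iff]
  constructor
  · intro hc S A g hAS hA1 hgA
    set D := closure A with hD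
    have hD1 : D ≠ ⊥ := fun h => by
      obtain ⟨a, ha, ha1⟩ := hA1
      exact ha1 (mem_bot.mp (h ▸ subset_closure ha))
    have hlink : Linked 𝓕 D S (g • S) :=
      hc D S (g • S) hD1 ((closure_le _).mpr hAS)
        ((closure_le _).mpr (by rw [map_conj_eq_smul]; exact conjRight_subset.mp hgA))
    have key : ∀ T : Sylow p G, Linked 𝓕 D S T → ∃ (n : ℕ) (Y : Fin n → Subgroup G) (y : Fin n → G),
        (List.ofFn y).prod • S = T ∧ (∀ i, Y i ∈ Cfsg.sylowMembers p 𝓕 (S : Subgroup G) ∧ y i ∈ Y i) ∧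
        ∀ i : Fin n, Cfsg.conjRight (((List.ofFn y).take (i.val + 1)).prod) A ⊆ (S : Set G) ∩ (Y i : Set G) := by
      intro T hT
      induction hT with
      | refl => exact ⟨0, finZeroElim, finZeroElim, by simp, fun i => i.elim0, fun i => i.elim0⟩
      | tail _ hs ih =>
        rename_i U V _
        obtain ⟨n, Y, y, hq, hY, hA⟩ := ih
        obtain ⟨X, x, hXU, hXV, hx, hconj, hDle⟩ := hs
        set q := (List.ofFn y).prod with hqdef
        have hV : (x * q) • S = V := by rw [mul_smul, hq, smul_eq_of_subgroupConjRight hconj]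
        set Z := X.map (MulAut.conj q⁻¹).toMonoidHom with hZ
        have hmem : Z ∈ Cfsg.sylowMembers p 𝓕 (S : Subgroup G) := by
          have := members_conj h𝓕 q⁻¹ U hXU
          rwa [show q⁻¹ • U = S from by rw [← hq, inv_smul_smul]] at this
        have hyZ : q⁻¹ * x * q ∈ Z := ⟨x, hx, by simp⟩
        refine ⟨n + 1, Fin.snoc Y Z, Fin.snoc y (q⁻¹ * x * q), ?_, ?_, ?_⟩
        · rw [List.ofFn_succ', List.concat_eq_append, List.prod_append]
          simp only [Fin.snoc_castSucc, Fin.snoc_last, List.prod_singleton, ← hqdef]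
          rw [show q * (q⁻¹ * x * q) = x * q by group, hV]
        · intro i
          induction i using Fin.lastCases with
          | last => simpa using ⟨hmem, hyZ⟩
          | cast i => simpa using hY i
        · intro i
          induction i using Fin.lastCases with
          | cast i =>
            rw [Fin.val_castSucc, take_ofFn_snoc y _ _ i.2, Fin.snoc_castSucc]
            exact hA i
          | last =>
            have e : ((List.ofFn (Fin.snoc y (q⁻¹ * x * q) : Fin (n + 1) → G)).take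
                ((Fin.last n).val + 1)).prod = x * q := by
              rw [take_ofFn_succ, Fin.val_last, take_ofFn_snoc y _ _ le_rfl, Fin.snoc_last,
                List.take_of_length_le (by simp), ← hqdef]
              group
            rw [e, Fin.snoc_last]
            rintro _ ⟨a, ha, rfl⟩
            have h1 := hDle (subset_closure ha)
            refine ⟨?_, ?_⟩
            · have h2 : a ∈ (((x * q) • S : Sylow p G) : Subgroup G) := hV.symm ▸ h1.1
              rw [map_conj_eq_smul] at h2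
              exact conjRight_subset.mpr (Set.singleton_subset_iff.mpr h2) ⟨a, rfl, rfl⟩
            · refine ⟨x⁻¹ * a * x, mul_mem (mul_mem (inv_mem hx) h1.2) hx, ?_⟩
              simp only [MulEquiv.coe_toMonoidHom, MulAut.conj_apply]
              group
    obtain ⟨n, Y, y, hq, hY, hA⟩ := key _ hlink
    refine ⟨n, Y, y, (List.ofFn y).prod⁻¹ * g, ?_, hY, by rw [mul_inv_cancel_left], hA⟩
    exact Sylow.smul_eq_iff_mem_normalizer.mp (by rw [mul_smul, ← hq, inv_smul_smul])
  · intro hc D S T hD hS hT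
    obtain ⟨g, rfl⟩ := MulAction.exists_smul_eq G S T
    obtain ⟨n, Y, y, y₀, hy₀, hY, hg, hA⟩ := hc S (D : Set G) g hS
      (by
        obtain ⟨a, ha, ha1⟩ := (bot_or_exists_ne_one D).resolve_left hD
        exact ⟨a, ha, ha1⟩)
      (conjRight_subset.mpr (by rw [← map_conj_eq_smul]; exact hT))
    set q : ℕ → G := fun k => ((List.ofFn y).take k).prod with hq
    have key : ∀ k, k ≤ n → Linked 𝓕 D S (q k • S) := by
      intro k
      induction k with
      | zero => intro _; simp [hq]; exact Relation.ReflTransGen.refl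
      | succ k ih =>
        intro hk
        set i : Fin n := ⟨k, hk⟩ with hi
        have hsucc : q (k + 1) = q k * y i := take_ofFn_succ y i
        refine (ih (Nat.le_of_succ_le hk)).tail ?_
        have hx : q k * y i * (q k)⁻¹ ∈ (Y i).map (MulAut.conj (q k)).toMonoidHom := ⟨y i, (hY i).2, by simp⟩
        have hsm : (q k * y i * (q k)⁻¹) • q k • S = q (k + 1) • S := by
          rw [smul_smul, hsucc]; congr 1; group
        have hX : (Y i).map (MulAut.conj (q k)).toMonoidHom = (Y i).map (MulAut.conj (q (k + 1))).toMonoidHom := by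
          rw [hsucc, ← map_conj_map_conj]
          congr 1
          refine (eq_of_le_of_card_ge ?_ ?_).symm
          · rintro _ ⟨z, hz, rfl⟩
            exact mul_mem (mul_mem (hY i).2 hz) (inv_mem (hY i).2)
          · exact (Nat.card_congr ((Y i).equivMapOfInjective _ (MulAut.conj (y i)).injective).toEquiv).le
        refine ⟨_, _, members_conj h𝓕 (q k) S (hY i).1, ?_, hx, ?_, ?_⟩
        · rw [hX]; exact members_conj h𝓕 _ S (hY i).1
        · rw [← hsm]; exact subgroupConjRight_smul _ _
        · intro a ha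
          have h1 := hA i ⟨a, ha, rfl⟩
          refine ⟨?_, ?_⟩
          · have h2 : a ∈ (S : Subgroup G).map (MulAut.conj (q (k + 1))).toMonoidHom :=
              ⟨_, h1.1, by simp only [hq, MulEquiv.coe_toMonoidHom, MulAut.conj_apply, hi]; group⟩
            exact h2
          · rw [hX]
            exact ⟨_, h1.2, by simp only [hq, MulEquiv.coe_toMonoidHom, MulAut.conj_apply, hi]; group⟩
    have := key n le_rfl
    rwa [show q n = (List.ofFn y).prod by simp [hq, List.take_of_length_le], show (List.ofFn y).prod • S = g • S by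
      rw [hg, mul_smul, Sylow.smul_eq_iff_mem_normalizer.mpr hy₀]] at this

/-- Generation by the members at one Sylow subgroup and its normalizer. -/
theorem generated_of_controls [Finite G] [Fact p.Prime] {𝓕 : Set (Subgroup G)} (h𝓕 : Cfsg.IsNormalSet 𝓕)
    (hc : Cfsg.ControlsSylowIntersections p 𝓕) (hconn : Cfsg.IsSylowChainConnected p G) (S : Sylow p G) :
    (⨆ X ∈ Cfsg.sylowMembers p 𝓕 (S : Subgroup G), X) ⊔ normalizer ((S : Subgroup G) : Set G) = ⊤ := by
  set H := ⨆ X ∈ Cfsg.sylowMembers p 𝓕 (S : Subgroup G), X with hH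
  rw [controls_iff] at hc
  have key : ∀ (D : Subgroup G) (T U : Sylow p G), Linked 𝓕 D T U → (∃ h ∈ H, h • S = T) → ∃ h ∈ H, h • S = U := by
    intro D T U hl h0
    induction hl with
    | refl => exact h0
    | tail _ hs ih =>
      rename_i A B _
      obtain ⟨h, hh, hA⟩ := ih
      obtain ⟨X, x, hXA, -, hx, hconj, -⟩ := hs
      refine ⟨x * h, mul_mem ?_ hh, by rw [mul_smul, hA, smul_eq_of_subgroupConjRight hconj]⟩
      have hmem := members_conj h𝓕 h⁻¹ A hXA
      rw [show h⁻¹ • A = S from by rw [← hA, inv_smul_smul]] at hmem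
      have h1 : h⁻¹ * x * h ∈ H :=
        le_iSup₂ (f := fun X (_ : X ∈ Cfsg.sylowMembers p 𝓕 (S : Subgroup G)) => X) _ hmem
          ⟨x, hx, by simp⟩
      simpa [mul_assoc] using mul_mem (mul_mem hh h1) (inv_mem hh)
  refine top_le_iff.mp fun g _ => ?_
  obtain ⟨n, c, h0, hn, -, hadj⟩ := hconn S (g • S)
  have hall : ∀ i : Fin (n + 1), ∃ h ∈ H, h • S = c i := by
    intro i
    induction i using Fin.induction with
    | zero => exact ⟨1, one_mem _, by rw [one_smul, h0]⟩
    | succ i ih => exact key _ _ _ (hc _ _ _ (hadj i).2 inf_le_left inf_le_right) ih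
  obtain ⟨h, hh, hh'⟩ := hall (Fin.last n)
  rw [hn] at hh'
  have h2 : h⁻¹ * g ∈ normalizer ((S : Subgroup G) : Set G) :=
    Sylow.smul_eq_iff_mem_normalizer.mp (by rw [mul_smul, ← hh', inv_smul_smul])
  simpa using mul_mem (mem_sup_left hh : h ∈ H ⊔ normalizer ((S : Subgroup G) : Set G)) (mem_sup_right h2)

/-- A Sylow subgroup meeting `Y` in a Sylow subgroup of `Y` lies in `Y` when `Y` contains a `p`-subgroup as large. -/
theorem le_of_sylow_card_le [Finite G] [Fact p.Prime] {Q P Y : Subgroup G} (hQ : IsPGroup p Q)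
    (hP : IsPGroup p P) (hPY : P ≤ Y) (hidx : ¬ p ∣ Q.relIndex Y) (hcard : Nat.card Q ≤ Nat.card P) : Q ≤ Y := by
  obtain ⟨y, -, hy'⟩ := exists_conj_le_of_relIndex (D := Q ⊓ Y) inf_le_right (hQ.to_le inf_le_left)
    (by rwa [inf_relIndex_right]) hPY hP
  have h1 : Nat.card P ≤ Nat.card ↥(Q ⊓ Y) := by
    refine (Nat.card_congr (P.equivMapOfInjective (MulAut.conj y).toMonoidHom (MulAut.conj y).injective).toEquiv).le.trans
      (Nat.le_of_dvd Nat.card_pos (card_dvd_of_le ?_))
    rintro _ ⟨u, hu, rfl⟩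
    exact hy' u hu
  exact inf_eq_left.mp (eq_of_le_of_card_ge inf_le_left (hcard.trans h1))

/-- A Sylow subgroup lying in a subgroup with a Sylow intersection. -/
theorem exists_sylow_inside_factorization [Finite G] [Fact p.Prime] (S : Sylow p G) {G₁ G₂ D : Subgroup G} {a : G}
    (h₁ : (S : Subgroup G) ≤ G₁) (h₂ : (S : Subgroup G) ≤ G₂) (ha : a ∈ G₁) (hD : IsPGroup p D)
    (hD₁ : D ≤ G₁) (hD₂ : D ≤ G₂.map (MulAut.conj a).toMonoidHom) :
    ∃ U : Sylow p G, D ≤ (U : Subgroup G) ∧ (U : Subgroup G) ≤ G₁ ⊓ G₂.map (MulAut.conj a).toMonoidHom := by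
  obtain ⟨R, hDR, hRI, hR, hidx⟩ := exists_sylow_above (le_inf hD₁ hD₂) hD
  have haS : ((a • S : Sylow p G) : Subgroup G) ≤ G₁ ⊓ G₂.map (MulAut.conj a).toMonoidHom := by
    rw [map_conj_eq_smul]
    refine le_inf ?_ (map_mono h₂)
    rintro _ ⟨s, hs, rfl⟩
    exact mul_mem (mul_mem ha (h₁ hs)) (inv_mem ha)
  obtain ⟨U, hU⟩ := hR.exists_le_sylow
  refine ⟨U, hDR.trans hU, ?_⟩
  have hUle : (U : Subgroup G) ≤ G₁ ⊓ G₂.map (MulAut.conj a).toMonoidHom := by
    refine le_of_sylow_card_le U.isPGroup' (a • S).isPGroup' haS (fun h => hidx (h.trans ?_)) ?_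
    · exact relIndex_dvd_of_le_left _ hU
    · rw [Sylow.card_eq_multiplicity, Sylow.card_eq_multiplicity]
  exact hUle

end Cfsg.Agent.H74
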