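import Mathlib

/-!
Models of the Sylow 2-subgroups: the wreath products of `Q₈` and `D₈` by a group of order 2, with
their permutation and matrix representations.
-/

set_option autoImplicit false

namespace Cfsg.Agent.H74.Syl8

open Matrix

set_option maxHeartbeats 4000000

/-- The group of order two. -/
abbrev C2 := Multiplicative (ZMod 2)

/-- A homomorphism on the group of order two from an involution. -/
def homC2 {G : Type*} [Monoid G] (x : G) (h : x * x = 1) : C2 →* G where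
  toFun z := if z = 1 then 1 else x
  map_one' := if_pos rfl
  map_mul' a b := by
    have key : ∀ z : C2, z = 1 ∨ z = Multiplicative.ofAdd 1 := by decide
    have e : (Multiplicative.ofAdd (1 : ZMod 2)) * Multiplicative.ofAdd 1 = 1 := by decide
    have n : (Multiplicative.ofAdd (1 : ZMod 2)) ≠ 1 := by decide
    rcases key a with rfl | rfl <;> rcases key b with rfl | rfl <;> simp [e, n, h]

lemma homC2_ne {G : Type*} [Monoid G] (x : G) (h : x * x = 1) {z : C2} (hz : z ≠ 1) :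
    homC2 x h z = x := if_neg hz

abbrev Q8 := QuaternionGroup 2

/-- An outer involutory automorphism of `Q₈`. -/
def qphi : Q8 → Q8
  | .a i => QuaternionGroup.xa 0 ^ i.val
  | .xa i => QuaternionGroup.a 1 * QuaternionGroup.xa 0 ^ i.val

lemma qphi_mul : ∀ x y, qphi (x * y) = qphi x * qphi y := by decide +kernel
lemma qphi_qphi : ∀ x, qphi (qphi x) = x := by decide +kernel

/-- The swap on pairs, twisted by `qphi`. -/
def qswap : MulAut (Q8 × Q8) where
  toFun n := (qphi n.2, qphi n.1)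
  invFun n := (qphi n.2, qphi n.1)
  left_inv n := by simp [qphi_qphi]
  right_inv n := by simp [qphi_qphi]
  map_mul' m n := by simp [qphi_mul]

lemma qswap_sq : qswap * qswap = 1 := by
  apply MulEquiv.ext
  intro n
  show (qphi (qphi n.1), qphi (qphi n.2)) = n
  rw [qphi_qphi, qphi_qphi]

/-- `Q₈ ≀ 2`. -/
abbrev WQ := (Q8 × Q8) ⋊[homC2 qswap qswap_sq] C2

/-- Numbering of `Q₈`. -/
def qnum : Q8 → Fin 8
  | .a i => ⟨i.val % 4, by omega⟩
  | .xa i => ⟨4 + i.val % 4, by omega⟩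

/-- Inverse numbering of `Q₈`. -/
def qden (k : Fin 8) : Q8 :=
  if k.val < 4 then .a (k.val : ZMod 4) else .xa ((k.val - 4 : ℕ) : ZMod 4)

lemma qden_qnum : ∀ x, qden (qnum x) = x := by decide +kernel
lemma qnum_qden : ∀ k, qnum (qden k) = k := by decide +kernel

/-- Left and right translation of `Q₈`. -/
def qperm : Q8 × Q8 →* Equiv.Perm (Fin 8) where
  toFun n :=
    { toFun := fun k => qnum (n.1 * qden k * n.2⁻¹)
      invFun := fun k => qnum (n.1⁻¹ * qden k * n.2)
      left_inv := fun k => by simp [qden_qnum, qnum_qden, mul_assoc]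
      right_inv := fun k => by simp [qden_qnum, qnum_qden, mul_assoc] }
  map_one' := by ext k; simp [qnum_qden]
  map_mul' m n := by ext k; simp [qden_qnum, mul_assoc]

/-- The twisted inversion of `Q₈`. -/
def qsig : Equiv.Perm (Fin 8) where
  toFun k := qnum (qphi (qden k))⁻¹
  invFun k := qnum (qphi (qden k))⁻¹
  left_inv := by decide +kernel
  right_inv := by decide +kernel

lemma qperm_even : ∀ n, Equiv.Perm.sign (qperm n) = 1 := by decide +kernel
lemma qsig_even : Equiv.Perm.sign qsig = 1 := by decide +kernel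
lemma qsig_sq : qsig * qsig = 1 := by decide +kernel
lemma qsig_conj : ∀ n, qperm (qswap n) = qsig * qperm n * qsig := by decide +kernel

/-- The image in `A₈`. -/
def qalt : Q8 × Q8 →* alternatingGroup (Fin 8) :=
  qperm.codRestrict _ fun n => qperm_even n

def qsigA : alternatingGroup (Fin 8) := ⟨qsig, qsig_even⟩

lemma qsigA_sq : qsigA * qsigA = 1 := Subtype.ext qsig_sq

/-- `Q₈ ≀ 2 → A₈`. -/
def toAlt : WQ →* alternatingGroup (Fin 8) :=
  SemidirectProduct.lift qalt (homC2 qsigA qsigA_sq) fun z => by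
    by_cases hz : z = 1
    · subst hz; ext n : 1; simp
    refine MonoidHom.ext fun n => Subtype.ext ?_
    simp only [MonoidHom.coe_comp, MulEquiv.coe_toMonoidHom, Function.comp_apply,
      MulAut.conj_apply, homC2_ne _ _ hz]
    show qperm (qswap n) = qsig * qperm n * qsig⁻¹
    rw [show qsig⁻¹ = qsig from inv_eq_of_mul_eq_one_right qsig_sq]
    exact qsig_conj n

abbrev I4 := Fin 2 ⊕ Fin 2

/-- Natural matrices of `Q₈` over `ZMod 3`. -/
def qmat : Q8 → Matrix (Fin 2) (Fin 2) (ZMod 3)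
  | .a i => !![0, -1; 1, 0] ^ i.val
  | .xa i => !![1, 1; 1, -1] * !![0, -1; 1, 0] ^ i.val

/-- Two blocks on the pairs `(inl k, inr k)`. -/
def pairBlock (A B : Matrix (Fin 2) (Fin 2) (ZMod 3)) : Matrix I4 I4 (ZMod 3) :=
  Matrix.of fun r c =>
    let k : I4 → Fin 2 := Sum.elim id id
    let s : I4 → Fin 2 := Sum.elim (fun _ => 0) fun _ => 1
    if k r = k c then (if k r = 0 then A else B) (s r) (s c) else 0

lemma pairBlock_mul (A B C D : Matrix (Fin 2) (Fin 2) (ZMod 3)) :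
    pairBlock A B * pairBlock C D = pairBlock (A * C) (B * D) := by
  ext r c
  rcases r with r | r <;> rcases c with c | c <;> fin_cases r <;> fin_cases c <;>
    simp [pairBlock, Matrix.mul_apply, Fintype.sum_sum_type, Fin.sum_univ_two]

lemma pairBlock_one : pairBlock 1 1 = 1 := by decide +kernel

lemma qmat_mul : ∀ x y, qmat (x * y) = qmat x * qmat y := by decide +kernel
lemma qmat_one : qmat 1 = 1 := by decide +kernel
lemma qphi_one : qphi 1 = 1 := by decide +kernel

/-- `Q₈ × Q₈` as two commuting symplectic blocks. -/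
def qblock : Q8 × Q8 →* Matrix I4 I4 (ZMod 3) where
  toFun n := pairBlock (qmat n.1) (qmat (qphi n.2))
  map_one' := by simp [qmat_one, qphi_one, pairBlock_one]
  map_mul' m n := by simp [qphi_mul, qmat_mul, pairBlock_mul]

/-- The exchange of the two blocks. -/
def qexch : Matrix I4 I4 (ZMod 3) :=
  Matrix.of fun r c =>
    if Sum.map (Fin.rev : Fin 2 → Fin 2) (Fin.rev : Fin 2 → Fin 2) r = c then 1 else 0

lemma qexch_sq : qexch * qexch = 1 := by decide +kernel
lemma qexch_conj : ∀ n, qblock (qswap n) = qexch * qblock n * qexch := by decide +kernel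

lemma qblock_symp : ∀ n, qblock n * Matrix.J (Fin 2) (ZMod 3) * (qblock n)ᵀ =
    Matrix.J (Fin 2) (ZMod 3) := by decide +kernel

lemma qexch_symp : qexch * Matrix.J (Fin 2) (ZMod 3) * qexchᵀ = Matrix.J (Fin 2) (ZMod 3) := by
  decide +kernel

def qblockSp : Q8 × Q8 →* Matrix.symplecticGroup (Fin 2) (ZMod 3) :=
  qblock.codRestrict _ fun n => qblock_symp n

def qexchSp : Matrix.symplecticGroup (Fin 2) (ZMod 3) := ⟨qexch, qexch_symp⟩

lemma qexchSp_sq : qexchSp * qexchSp = 1 := Subtype.ext qexch_sq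

/-- `Q₈ ≀ 2 → Sp₄(3)`. -/
def toSp : WQ →* Matrix.symplecticGroup (Fin 2) (ZMod 3) :=
  SemidirectProduct.lift qblockSp (homC2 qexchSp qexchSp_sq) fun z => by
    by_cases hz : z = 1
    · subst hz; ext n : 1; simp
    refine MonoidHom.ext fun n => ?_
    simp only [MonoidHom.coe_comp, MulEquiv.coe_toMonoidHom, Function.comp_apply,
      MulAut.conj_apply, homC2_ne _ _ hz]
    rw [show qexchSp⁻¹ = qexchSp from inv_eq_of_mul_eq_one_right qexchSp_sq]
    exact Subtype.ext (qexch_conj n)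

/-- The matrix of an element of `Q₈ ≀ 2`. -/
def qW (n : Q8 × Q8) (z : C2) : Matrix I4 I4 (ZMod 3) :=
  qblock n * if z = 1 then 1 else qexch

lemma toSp_apply (w : WQ) : ((toSp w : Matrix.symplecticGroup (Fin 2) (ZMod 3)) :
    Matrix I4 I4 (ZMod 3)) = qW w.left w.right := by
  show ((qblockSp w.left * homC2 qexchSp qexchSp_sq w.right :
    Matrix.symplecticGroup (Fin 2) (ZMod 3)) : Matrix I4 I4 (ZMod 3)) = _
  by_cases hz : w.right = 1
  · simp [qW, hz]; rfl
  · rw [homC2_ne _ _ hz, qW, if_neg hz]; rfl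

lemma toAlt_apply (w : WQ) : ((toAlt w : alternatingGroup (Fin 8)) : Equiv.Perm (Fin 8)) =
    qperm w.left * if w.right = 1 then 1 else qsig := by
  show ((qalt w.left * homC2 qsigA qsigA_sq w.right : alternatingGroup (Fin 8)) :
    Equiv.Perm (Fin 8)) = _
  by_cases hz : w.right = 1
  · simp [hz]; rfl
  · rw [homC2_ne _ _ hz, if_neg hz]; rfl

lemma q_kernels : ∀ (n : Q8 × Q8) (z : C2),
    (qW n z = 1 ∨ qW n z = -1) ↔ qperm n * (if z = 1 then 1 else qsig) = 1 := by decide +kernel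

lemma q_kernel_two : ∀ (n : Q8 × Q8) (z : C2),
    qperm n * (if z = 1 then 1 else qsig) = 1 ↔
      z = 1 ∧ (n = 1 ∨ n = (QuaternionGroup.a 2, QuaternionGroup.a 2)) := by decide +kernel

abbrev D8 := DihedralGroup 4

/-- `D₈ ≀ 2`. -/
def dswap : MulAut (D8 × D8) := MulEquiv.prodComm

lemma dswap_sq : dswap * dswap = 1 := by apply MulEquiv.ext; intro n; rfl

abbrev WD := (D8 × D8) ⋊[homC2 dswap dswap_sq] C2

/-- Natural permutations of `D₈`. -/
def dfun : D8 → Fin 4 → Fin 4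
  | .r i, k => ⟨(k.val + i.val) % 4, by omega⟩
  | .sr i, k => ⟨(8 - (k.val + i.val) % 4) % 4, by omega⟩

lemma dfun_one : ∀ k, dfun 1 k = k := by decide +kernel
lemma dfun_mul : ∀ x y k, dfun (x * y) k = dfun x (dfun y k) := by decide +kernel

def dfun8 (n : D8 × D8) (k : Fin 8) : Fin 8 :=
  if h : k.val < 4 then ⟨(dfun n.1 ⟨k.val, h⟩).val, by omega⟩
  else ⟨4 + (dfun n.2 ⟨k.val - 4, by omega⟩).val, by omega⟩

lemma dfun8_one : ∀ k, dfun8 1 k = k := by decide +kernel
lemma dfun8_mul : ∀ x y k, dfun8 (x * y) k = dfun8 x (dfun8 y k) := by decide +kernel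

def dperm : D8 × D8 →* Equiv.Perm (Fin 8) where
  toFun n :=
    { toFun := dfun8 n
      invFun := dfun8 n⁻¹
      left_inv := fun k => by rw [← dfun8_mul, inv_mul_cancel, dfun8_one]
      right_inv := fun k => by rw [← dfun8_mul, mul_inv_cancel, dfun8_one] }
  map_one' := Equiv.ext dfun8_one
  map_mul' x y := Equiv.ext (dfun8_mul x y)

def dsig : Equiv.Perm (Fin 8) where
  toFun k := k + 4
  invFun k := k + 4
  left_inv := by decide +kernel
  right_inv := by decide +kernel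

lemma dsig_sq : dsig * dsig = 1 := by decide +kernel
lemma dsig_conj : ∀ n, dperm (dswap n) = dsig * dperm n * dsig := by decide +kernel

/-- `D₈ ≀ 2 → S₈`. -/
def toPerm : WD →* Equiv.Perm (Fin 8) :=
  SemidirectProduct.lift dperm (homC2 dsig dsig_sq) fun z => by
    by_cases hz : z = 1
    · subst hz; ext n : 1; simp
    refine MonoidHom.ext fun n => ?_
    simp only [MonoidHom.coe_comp, MulEquiv.coe_toMonoidHom, Function.comp_apply,
      MulAut.conj_apply, homC2_ne _ _ hz]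
    rw [show dsig⁻¹ = dsig from inv_eq_of_mul_eq_one_right dsig_sq]
    exact dsig_conj n

abbrev I6 := (Fin 2 ⊕ Fin 2) ⊕ Fin 2

/-- Coordinates of `I6`. -/
def six : I6 → Fin 6
  | .inl (.inl i) => ⟨i.val, by omega⟩
  | .inl (.inr i) => ⟨2 + i.val, by omega⟩
  | .inr i => ⟨4 + i.val, by omega⟩

def mR : Matrix I6 I6 (ZMod 2) := (!![0, 1, 1, 1, 1, 0; 1, 0, 1, 0, 1, 1; 1, 1, 1, 1, 0, 0;
  1, 1, 0, 0, 0, 0; 0, 0, 1, 1, 0, 1; 1, 1, 1, 1, 1, 1] : Matrix (Fin 6) (Fin 6) (ZMod 2)).submatrix six six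

def mS : Matrix I6 I6 (ZMod 2) := (!![1, 0, 1, 0, 1, 0; 0, 1, 0, 0, 0, 0; 0, 0, 1, 0, 0, 0;
  0, 0, 0, 1, 0, 0; 0, 0, 0, 0, 1, 0; 0, 0, 1, 0, 1, 1] : Matrix (Fin 6) (Fin 6) (ZMod 2)).submatrix six six

def mT : Matrix I6 I6 (ZMod 2) := (!![1, 1, 0, 0, 0, 0; 0, 1, 0, 0, 0, 0; 0, 1, 1, 0, 0, 0;
  1, 1, 1, 1, 0, 0; 0, 0, 0, 0, 1, 0; 0, 0, 0, 0, 0, 1] : Matrix (Fin 6) (Fin 6) (ZMod 2)).submatrix six six

def dmat1 : D8 →* Matrix I6 I6 (ZMod 2) where
  toFun
    | .r i => mR ^ i.val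
    | .sr i => mS * mR ^ i.val
  map_one' := by decide +kernel
  map_mul' := by decide +kernel

lemma dmat_comm : ∀ x y, Commute (dmat1 x) (mT * dmat1 y * mT) := by
  unfold Commute SemiconjBy
  decide +kernel

lemma mT_sq : mT * mT = 1 := by decide +kernel

def dmat : D8 × D8 →* Matrix I6 I6 (ZMod 2) where
  toFun n := dmat1 n.1 * (mT * dmat1 n.2 * mT)
  map_one' := by simp [mT_sq]
  map_mul' m n := by
    show dmat1 (m.1 * n.1) * (mT * dmat1 (m.2 * n.2) * mT) = _
    rw [map_mul, map_mul, mul_assoc (dmat1 m.1) (mT * _ * mT), ← mul_assoc (mT * _ * mT) (dmat1 n.1),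
      ← (dmat_comm n.1 m.2).eq]
    simp only [mul_assoc]
    rw [← mul_assoc mT mT, mT_sq, one_mul]

lemma mT_conj (n : D8 × D8) : dmat (dswap n) = mT * dmat n * mT := by
  show dmat1 n.2 * (mT * dmat1 n.1 * mT) = mT * (dmat1 n.1 * (mT * dmat1 n.2 * mT)) * mT
  rw [(dmat_comm n.2 n.1).eq]
  simp only [mul_assoc, mT_sq, mul_one]

/-- The quadratic form. -/
def qf (v : I6 → ZMod 2) : ZMod 2 :=
  v (.inl (.inl 0)) * v (.inl (.inr 0)) + v (.inl (.inl 1)) * v (.inl (.inr 1))
    + (v (.inr 0) ^ 2 + v (.inr 0) * v (.inr 1) + v (.inr 1) ^ 2)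

lemma qf_T : ∀ v, qf (mT *ᵥ v) = qf v := by decide +kernel
lemma qf_R : ∀ v, qf (mR *ᵥ v) = qf v := by decide +kernel
lemma qf_S : ∀ v, qf (mS *ᵥ v) = qf v := by decide +kernel

lemma qf_pow {A : Matrix I6 I6 (ZMod 2)} (hA : ∀ v, qf (A *ᵥ v) = qf v) (k : ℕ) :
    ∀ v, qf (A ^ k *ᵥ v) = qf v := by
  induction k with
  | zero => simp
  | succ k ih => intro v; rw [pow_succ, ← mulVec_mulVec, ih, hA]

lemma qf_dmat1 (x : D8) (v : I6 → ZMod 2) : qf (dmat1 x *ᵥ v) = qf v := by
  cases x with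
  | r i => exact qf_pow qf_R _ v
  | sr i =>
    show qf ((mS * mR ^ i.val) *ᵥ v) = qf v
    rw [← mulVec_mulVec, qf_S, qf_pow qf_R]

lemma qf_dmat (n : D8 × D8) (v : I6 → ZMod 2) : qf (dmat n *ᵥ v) = qf v := by
  show qf ((dmat1 n.1 * (mT * dmat1 n.2 * mT)) *ᵥ v) = qf v
  simp only [← mulVec_mulVec, qf_dmat1, qf_T]

def mTu : (Matrix I6 I6 (ZMod 2))ˣ := ⟨mT, mT, mT_sq, mT_sq⟩

lemma mTu_sq : mTu * mTu = 1 := Units.ext mT_sq

/-- `D₈ ≀ 2 → GL₆(2)`. -/
def toGL : WD →* GL I6 (ZMod 2) :=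
  SemidirectProduct.lift dmat.toHomUnits (homC2 mTu mTu_sq) fun z => by
    by_cases hz : z = 1
    · subst hz; ext n : 1; simp
    refine MonoidHom.ext fun n => ?_
    simp only [MonoidHom.coe_comp, MulEquiv.coe_toMonoidHom, Function.comp_apply,
      MulAut.conj_apply, homC2_ne _ _ hz]
    rw [show mTu⁻¹ = mTu from inv_eq_of_mul_eq_one_right mTu_sq]
    exact Units.ext (mT_conj n)

lemma toGL_apply (w : WD) : ((toGL w : GL I6 (ZMod 2)) : Matrix I6 I6 (ZMod 2)) =
    dmat w.left * if w.right = 1 then 1 else mT := by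
  show ((dmat.toHomUnits w.left * homC2 mTu mTu_sq w.right : GL I6 (ZMod 2)) :
    Matrix I6 I6 (ZMod 2)) = _
  by_cases hz : w.right = 1
  · simp [hz]
  · rw [homC2_ne _ _ hz, if_neg hz]; rfl

lemma toPerm_apply (w : WD) : toPerm w = dperm w.left * if w.right = 1 then 1 else dsig := by
  show dperm w.left * homC2 dsig dsig_sq w.right = _
  by_cases hz : w.right = 1
  · simp [hz]
  · rw [homC2_ne _ _ hz, if_neg hz]

lemma d_injective : ∀ (n : D8 × D8) (z : C2),
    dperm n * (if z = 1 then 1 else dsig) = 1 → n = 1 ∧ z = 1 := by decide +kernel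

lemma d_injective_mat : ∀ (n : D8 × D8) (z : C2),
    dmat n * (if z = 1 then 1 else mT) = 1 → n = 1 ∧ z = 1 := by decide +kernel

end Cfsg.Agent.H74.Syl8
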