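import Mathlib.GroupTheory.Sylow
import Mathlib.GroupTheory.SpecificGroups.Dihedral
import Mathlib.GroupTheory.IndexNormal
import Cfsg.Agent.H77.TransferTwo

/-!
A Sylow `2`-subgroup `C₂ × D₈` forces a subgroup of index two.
-/

set_option autoImplicit false

namespace Cfsg.Agent.H74.TwoDih

open Subgroup
open scoped Pointwise

/-- The model `C₂ × D₈`. -/
abbrev D := Multiplicative (ZMod 2) × DihedralGroup 4

/-- A linear form on the Frattini quotient of the model. -/
def chiFun (i j k : ZMod 2) : D → ZMod 2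
  | (a, .r b) => i * Multiplicative.toAdd a + j * (b.val : ZMod 2)
  | (a, .sr b) => i * Multiplicative.toAdd a + j * (b.val : ZMod 2) + k

theorem chiFun_mul : ∀ (i j k : ZMod 2) (x y : D), chiFun i j k (x * y) = chiFun i j k x + chiFun i j k y := by
  decide +kernel

/-- The kernel of `chiFun`. -/
def ker (i j k : ZMod 2) : Subgroup D :=
  (MonoidHom.mk' (fun x => Multiplicative.ofAdd (chiFun i j k x)) fun x y => by
    rw [chiFun_mul, ofAdd_add]).ker

theorem mem_ker {i j k : ZMod 2} {x : D} : x ∈ ker i j k ↔ chiFun i j k x = 0 := by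
  simp [ker, MonoidHom.mem_ker]

/-- The central involution outside the derived subgroup. -/
def t : D := (Multiplicative.ofAdd 1, .r 0)
/-- The derived involution. -/
def z : D := (1, .r 2)
/-- A representative of a noncentral class of involutions. -/
def c (α β : ZMod 2) : D := (Multiplicative.ofAdd α, .sr (β.val : ZMod 4))

theorem sq_cases : ∀ x : D, x * x = 1 ∨ x * x = z := by decide +kernel

theorem center_cases : ∀ x : D, (∀ y : D, x * y = y * x) → x = 1 ∨ x = t ∨ x = z ∨ x = t * z := by
  decide +kernel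

theorem invol_cases : ∀ x : D, x ≠ 1 → x * x = 1 → (x = t ∨ x = z ∨ x = t * z) ∨
    ∃ α β : ZMod 2, ∃ y : D, y * x * y⁻¹ = c α β := by
  decide +kernel

theorem ker_cases : ∀ (j k α β : ZMod 2), chiFun 1 j k (c α β) = 0 → α = j * β + k := by decide +kernel

theorem chi_conj : ∀ (i j k : ZMod 2) (x y : D), chiFun i j k (y * x * y⁻¹) = chiFun i j k x := by
  intro i j k x y
  have h : chiFun i j k (y * x * y⁻¹) + chiFun i j k y = chiFun i j k y + chiFun i j k x := by
    rw [← chiFun_mul, ← chiFun_mul, inv_mul_cancel_right]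
  exact add_right_cancel (h.trans (add_comm _ _))

theorem kerE_cases : ∀ x : D, chiFun 0 1 0 x = 0 → x = 1 ∨ x = t ∨ x = z ∨ x = t * z ∨
    ∃ α : ZMod 2, ∃ y : D, y * x * y⁻¹ = c α 0 := by
  decide +kernel

variable {G : Type*} [Group G] [Finite G] (S : Sylow 2 G) (e : ↥(S : Subgroup G) ≃* D)

/-- The embedding of the model. -/
def emb : D →* G := (S : Subgroup G).subtype.comp e.symm.toMonoidHom

theorem emb_mem (x : D) : emb S e x ∈ (S : Subgroup G) := (e.symm x).2

theorem emb_inj : Function.Injective (emb S e) := Subtype.val_injective.comp e.symm.injective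

theorem emb_surj {g : G} (hg : g ∈ (S : Subgroup G)) : ∃ x, emb S e x = g :=
  ⟨e ⟨g, hg⟩, by simp [emb]⟩

theorem emb_range : (emb S e).range = (S : Subgroup G) :=
  le_antisymm (by rintro _ ⟨x, rfl⟩; exact emb_mem S e x) fun g hg => emb_surj S e hg

/-- The normalizer of `S` fixes its central elements. -/
theorem normalizer_fix {n : G} (hn : n ∈ normalizer ((S : Subgroup G) : Set G)) {x : D}
    (hx : ∀ y : D, x * y = y * x) : n * emb S e x * n⁻¹ = emb S e x := by
  set f := emb S e
  have himg : ∀ m ∈ normalizer ((S : Subgroup G) : Set G), ∀ a : D, ∃ b, f b = m * f a * m⁻¹ :=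
    fun m hm a => emb_surj S e ((mem_normalizer_iff.mp hm _).mp (emb_mem S e a))
  have hz : ∀ m ∈ normalizer ((S : Subgroup G) : Set G), m * f z * m⁻¹ = f z := by
    intro m hm
    obtain ⟨b, hb⟩ := himg m hm ((1, .r 1) : D)
    have h1 : f (b * b) = m * f z * m⁻¹ := by
      rw [map_mul, hb, show z = ((1, .r 1) : D) * (1, .r 1) by decide, map_mul]
      group
    rcases sq_cases b with h | h
    · rw [h, map_one, eq_comm, mul_inv_eq_one] at h1
      have : f z = 1 := mul_left_cancel (h1.trans (mul_one m).symm)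
      exact absurd (emb_inj S e (this.trans (map_one f).symm)) (by decide)
    · exact (h ▸ h1).symm
  have hcen : ∀ m ∈ normalizer ((S : Subgroup G) : Set G),
      m * f t * m⁻¹ = f t ∨ m * f t * m⁻¹ = f (t * z) := by
    intro m hm
    obtain ⟨b, hb⟩ := himg m hm t
    have hbc : ∀ y : D, b * y = y * b := by
      intro y
      obtain ⟨y', hy'⟩ := himg m⁻¹ (inv_mem hm) y
      refine emb_inj S e ?_
      have hy : f y = m * f y' * m⁻¹ := by rw [hy']; group
      have hcomm : f t * f y' = f y' * f t := by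
        rw [← map_mul, ← map_mul, show t * y' = y' * t from (by decide +kernel : ∀ y : D, t * y = y * t) y']
      show f (b * y) = f (y * b)
      rw [map_mul, map_mul, hb, hy]
      calc m * f t * m⁻¹ * (m * f y' * m⁻¹) = m * (f t * f y') * m⁻¹ := by group
        _ = _ := by rw [hcomm]; group
    have hbne : b ≠ 1 := by
      rintro rfl
      rw [map_one, eq_comm, mul_inv_eq_one] at hb
      exact absurd (emb_inj S e ((mul_left_cancel (hb.trans (mul_one m).symm)).trans (map_one f).symm)) (by decide)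
    rcases center_cases b hbc with h | h | h | h
    · exact absurd h hbne
    · exact Or.inl (hb ▸ h ▸ rfl)
    · exfalso
      subst h
      have : f t = f z := mul_left_cancel (mul_right_cancel (hb.symm.trans (hz m hm).symm))
      exact absurd (emb_inj S e this) (by decide)
    · exact Or.inr (hb ▸ h ▸ rfl)
  have hsq : ∀ m ∈ normalizer ((S : Subgroup G) : Set G), m * m * f t * (m * m)⁻¹ = f t := by
    intro m hm
    rcases hcen m hm with h | h
    · calc m * m * f t * (m * m)⁻¹ = m * (m * f t * m⁻¹) * m⁻¹ := by group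
        _ = _ := by rw [h, h]
    · calc m * m * f t * (m * m)⁻¹ = m * (m * f t * m⁻¹) * m⁻¹ := by group
        _ = m * f (t * z) * m⁻¹ := by rw [h]
        _ = (m * f t * m⁻¹) * (m * f z * m⁻¹) := by rw [map_mul]; group
        _ = f (t * z) * f z := by rw [h, hz m hm]
        _ = f t := by rw [← map_mul]; exact congrArg f (by decide)
  have ht : n * f t * n⁻¹ = f t := by
    set N := normalizer ((S : Subgroup G) : Set G)
    haveI : ((S : Subgroup G).subgroupOf N).Normal := normal_in_normalizer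
    set k := ((S : Subgroup G).subgroupOf N).index with hk
    have hodd : Odd k := by
      refine Nat.not_even_iff_odd.mp fun he => S.not_dvd_index ((even_iff_two_dvd.mp he).trans ?_)
      rw [← relIndex_mul_index (le_normalizer : (S : Subgroup G) ≤ N)]
      exact dvd_mul_right _ _
    have hmem : n ^ k ∈ (S : Subgroup G) :=
      mem_subgroupOf.mp (((S : Subgroup G).subgroupOf N).pow_index_mem ⟨n, hn⟩)
    obtain ⟨y, hy⟩ := emb_surj S e hmem
    have hfix : n ^ k * f t * (n ^ k)⁻¹ = f t := by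
      rw [← hy, ← map_inv, ← map_mul, ← map_mul]
      exact congrArg f ((by decide +kernel : ∀ y : D, y * t * y⁻¹ = t) y)
    obtain ⟨l, hl⟩ := hodd
    have hl2 : ∀ l : ℕ, n ^ (2 * l) * f t * (n ^ (2 * l))⁻¹ = f t := by
      intro l
      induction l with
      | zero => simp
      | succ l ih =>
        calc _ = n * n * (n ^ (2 * l) * f t * (n ^ (2 * l))⁻¹) * (n * n)⁻¹ := by
              rw [show 2 * (l + 1) = 2 + 2 * l by ring, pow_add, pow_two]; group
          _ = _ := by rw [ih, hsq n hn]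
    rw [hl, show 2 * l + 1 = 1 + 2 * l by ring, pow_add, pow_one] at hfix
    calc n * f t * n⁻¹ = n * (n ^ (2 * l) * f t * (n ^ (2 * l))⁻¹) * n⁻¹ := by rw [hl2]
      _ = n * n ^ (2 * l) * f t * (n * n ^ (2 * l))⁻¹ := by group
      _ = _ := hfix
  rcases center_cases x hx with rfl | rfl | rfl | rfl
  · simp
  · exact ht
  · exact hz n hn
  · calc n * f (t * z) * n⁻¹ = (n * f t * n⁻¹) * (n * f z * n⁻¹) := by rw [map_mul]; group
      _ = _ := by rw [ht, hz n hn, map_mul]

/-- Distinct central elements are not fused. -/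
theorem central_eq {x y : D} (hx : ∀ w : D, x * w = w * x) (hy : ∀ w : D, y * w = w * y)
    (h : IsConj (emb S e x) (emb S e y)) : x = y := by
  have hc : ∀ x : D, (∀ w : D, x * w = w * x) → emb S e x ∈ centralizer ((S : Subgroup G) : Set G) := by
    intro x hx
    refine mem_centralizer_iff.mpr fun g hg => ?_
    obtain ⟨w, rfl⟩ := emb_surj S e hg
    rw [← map_mul, ← map_mul, hx w]
  obtain ⟨g, hg⟩ := isConj_iff.mp h
  obtain ⟨n, hn, hnx⟩ := S.conj_eq_normalizer_conj_of_mem_centralizer (emb S e x) g⁻¹ (hc x hx)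
    (by rw [inv_inv, hg]; exact hc y hy)
  rw [inv_inv, hg] at hnx
  have hfix := normalizer_fix S e (inv_mem hn) hx
  rw [inv_inv] at hfix
  exact (emb_inj S e (hnx.trans hfix)).symm

/-- Transfer: involutions fuse into every maximal subgroup. -/
theorem exists_fused (hG : ∀ H : Subgroup G, H.index ≠ 2) (i j k : ZMod 2) {u : D} (hu : u * u = 1)
    (hu1 : u ≠ 1) (hk : chiFun i j k u ≠ 0) :
    ∃ v : D, chiFun i j k v = 0 ∧ v * v = 1 ∧ v ≠ 1 ∧ IsConj (emb S e u) (emb S e v) := by
  set f := emb S e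
  have hrel : ((ker i j k).map f).relIndex (S : Subgroup G) = 2 := by
    rw [← emb_range S e, MonoidHom.range_eq_map, relIndex_map_map_of_injective _ _ (emb_inj S e),
      relIndex_top_right, ker, index_ker]
    have hsurj : (MonoidHom.mk' (fun x => Multiplicative.ofAdd (chiFun i j k x)) fun x y => by
        rw [chiFun_mul, ofAdd_add]).range = (⊤ : Subgroup (Multiplicative (ZMod 2))) := by
      refine eq_top_iff.mpr fun w _ => ?_
      by_cases hw : w = 1
      · exact hw ▸ one_mem _
      · refine ⟨u, ?_⟩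
        show Multiplicative.ofAdd (chiFun i j k u) = w
        have : ∀ a : ZMod 2, a ≠ 0 → ∀ w : Multiplicative (ZMod 2), w ≠ 1 → Multiplicative.ofAdd a = w := by decide
        exact this _ hk w hw
    rw [hsurj, card_top, Nat.card_eq_fintype_card]
    rfl
  have hord : orderOf (f u) = 2 ^ 1 := by
    rw [pow_one, orderOf_injective f (emb_inj S e)]
    exact orderOf_eq_prime (by rw [pow_two, hu]) hu1
  obtain ⟨g, hg⟩ := H77.exists_conj_mem_of_transfer hG S ((ker i j k).map f)
    (fun x hx => by obtain ⟨v, -, rfl⟩ := hx; exact emb_mem S e v) hrel (f u) 1 hord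
    (fun m g hm hd _ => by
      have : m = 2 := le_antisymm (Nat.le_of_dvd (by norm_num) (by simpa using hd)) hm
      subst this
      rw [pow_two, ← map_mul, hu, map_one, mul_one, inv_mul_cancel]
      exact one_mem _)
  obtain ⟨v, hv, hvg⟩ := hg
  refine ⟨v, mem_ker.mp hv, ?_, ?_, isConj_iff.mpr ⟨g, hvg.symm⟩⟩
  · refine emb_inj S e ?_
    show f (v * v) = f 1
    rw [map_mul, hvg, map_one]
    calc g * f u * g⁻¹ * (g * f u * g⁻¹) = g * (f u * f u) * g⁻¹ := by group
      _ = 1 := by rw [← map_mul, hu, map_one]; group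
  · rintro rfl
    rw [map_one, eq_comm, mul_inv_eq_one] at hvg
    exact hu1 (emb_inj S e ((mul_left_cancel (hvg.trans (mul_one g).symm)).trans (map_one f).symm))

include S e in
/-- No group with such a Sylow subgroup is without a subgroup of index two. -/
theorem false_of_no_index_two (hG : ∀ H : Subgroup G, H.index ≠ 2) : False := by
  haveI : Fact (Nat.Prime 2) := ⟨Nat.prime_two⟩
  set f := emb S e with hf
  have cent : ∀ x : D, x = t ∨ x = z ∨ x = t * z → ∀ w : D, x * w = w * x := by
    intro x hx; rcases hx with rfl | rfl | rfl <;> decide +kernel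
  have hconjS : ∀ x y : D, IsConj (f x) (f (y * x * y⁻¹)) := fun x y =>
    isConj_iff.mpr ⟨f y, by rw [map_mul, map_mul, map_inv]⟩
  -- labels
  have hlab : ∀ α β : ZMod 2, ∃ v : D, (v = t ∨ v = z ∨ v = t * z) ∧ IsConj (f (c α β)) (f v) := by
    intro α β
    obtain ⟨v, hv, hv2, hv1, hc⟩ := exists_fused S e hG 0 0 1 (u := c α β)
      ((by decide +kernel : ∀ α β : ZMod 2, c α β * c α β = 1) α β)
      ((by decide +kernel : ∀ α β : ZMod 2, c α β ≠ 1) α β)
      ((by decide +kernel : ∀ α β : ZMod 2, chiFun 0 0 1 (c α β) ≠ 0) α β)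
    exact ⟨v, (by decide +kernel : ∀ v : D, chiFun 0 0 1 v = 0 → v * v = 1 → v ≠ 1 → v = t ∨ v = z ∨ v = t * z) v hv hv2 hv1, hc⟩
  choose L hL hLc using hlab
  -- `t` and `tz` meet every dihedral maximal subgroup
  have hmeet : ∀ w : D, w = t ∨ w = t * z → ∀ j k : ZMod 2, L k 0 = w ∨ L (j + k) 1 = w := by
    intro w hw j k
    have hwk : chiFun 1 j k w ≠ 0 := by
      rcases hw with rfl | rfl
      · revert j k; decide +kernel
      · revert j k; decide +kernel
    have hw2 : w * w = 1 := by rcases hw with rfl | rfl <;> decide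
    have hw1 : w ≠ 1 := by rcases hw with rfl | rfl <;> decide
    obtain ⟨v, hv, hv2, hv1, hc⟩ := exists_fused S e hG 1 j k hw2 hw1 hwk
    have hwc := cent w (hw.imp_right Or.inr)
    rcases invol_cases v hv1 hv2 with hvc | ⟨α, β, y, hy⟩
    · have hvw := central_eq S e hwc (cent v hvc) hc
      exact absurd (hvw ▸ hv) hwk
    · have hα : α = j * β + k := ker_cases j k α β (by rw [← hy, chi_conj]; exact hv)
      have hLw : L α β = w := (central_eq S e hwc (cent _ (hL α β))
        (hc.trans ((hy ▸ hconjS v y : IsConj (f v) (f (c α β))).trans (hLc α β)))).symm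
      rcases (by decide : ∀ β : ZMod 2, β = 0 ∨ β = 1) β with rfl | rfl
      · rw [mul_zero, zero_add] at hα
        exact Or.inl (hα ▸ hLw)
      · rw [mul_one] at hα
        exact Or.inr (hα ▸ hLw)
  have hne : ∀ w : D, w = t ∨ w = t * z → L 0 0 = w → L 1 0 = w := by
    intro w hw h0
    set w' := t * z * w * t with hw'
    have hw'e : (w' = t ∨ w' = t * z) ∧ w' ≠ w := by rcases hw with rfl | rfl <;> decide
    have h01 : ∀ j, L (j + 0) 1 = w' := fun j =>
      (hmeet w' hw'e.1 j 0).resolve_left fun h => hw'e.2 (h.symm.trans h0)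
    rcases hmeet w hw 1 1 with h | h
    · exact h
    · have := h01 0
      rw [zero_add] at this
      rw [show (1 : ZMod 2) + 1 = 0 by decide] at h
      exact absurd (this.symm.trans h) hw'e.2
  obtain ⟨X, hX, hX0⟩ : ∃ X : D, (X = t ∨ X = t * z) ∧ ∀ α, L α 0 = X := by
    have h0 : L 0 0 = t ∨ L 0 0 = t * z := by
      rcases hL 0 0 with h | h | h
      · exact Or.inl h
      · exfalso
        rcases hmeet t (Or.inl rfl) 0 0 with h1 | h1
        · rw [h] at h1; exact absurd h1 (by decide)
        · rcases hmeet (t * z) (Or.inr rfl) 0 0 with h2 | h2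
          · rw [h] at h2; exact absurd h2 (by decide)
          · rw [h1] at h2; exact absurd h2 (by decide)
      · exact Or.inr h
    refine ⟨L 0 0, h0, fun α => ?_⟩
    rcases (by decide : ∀ β : ZMod 2, β = 0 ∨ β = 1) α with rfl | rfl
    · rfl
    · exact hne _ h0 rfl
  -- the normalizer of `E` centralizes `X`
  set E := (ker 0 1 0).map f with hE
  have hE8 : ∀ n ∈ normalizer (E : Set G), n * f X * n⁻¹ = f X := by
    intro n hn
    have hfix : ∀ w : D, (w = t ∨ w = z ∨ w = t * z) → w ≠ X → chiFun 0 1 0 w = 0 → n * f w * n⁻¹ = f w := by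
      intro w hw hwX hw0
      obtain ⟨v, hv, hvn⟩ := (mem_normalizer_iff.mp hn (f w)).mp ⟨w, mem_ker.mpr hw0, rfl⟩
      have hcw : IsConj (f w) (f v) := isConj_iff.mpr ⟨n, hvn.symm⟩
      rcases kerE_cases v (mem_ker.mp hv) with h | h | h | h | ⟨α, y, hy⟩
      · subst h
        have hw1 : w ≠ 1 := by rcases hw with rfl | rfl | rfl <;> decide
        rw [map_one, eq_comm, mul_inv_eq_one] at hvn
        exact absurd (emb_inj S e ((mul_left_cancel (hvn.trans (mul_one n).symm)).trans (map_one f).symm)) hw1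
      · exact hvn ▸ congrArg f (central_eq S e (cent w hw) (cent v (Or.inl h)) hcw).symm
      · exact hvn ▸ congrArg f (central_eq S e (cent w hw) (cent v (Or.inr (Or.inl h))) hcw).symm
      · exact hvn ▸ congrArg f (central_eq S e (cent w hw) (cent v (Or.inr (Or.inr h))) hcw).symm
      · exact absurd (central_eq S e (cent w hw) (cent _ (hX.imp_right Or.inr))
          (hcw.trans ((hy ▸ hconjS v y : IsConj (f v) (f (c α 0))).trans (hX0 α ▸ hLc α 0)))) hwX
    rcases hX with rfl | rfl
    · have h1 := hfix z (Or.inr (Or.inl rfl)) (by decide) (by decide)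
      have h2 := hfix (t * z) (Or.inr (Or.inr rfl)) (by decide) (by decide)
      calc n * f t * n⁻¹ = n * f (t * z * z) * n⁻¹ := by rw [show t * z * z = t by decide]
        _ = n * f (t * z) * n⁻¹ * (n * f z * n⁻¹) := by rw [map_mul]; group
        _ = f t := by rw [h1, h2, ← map_mul]; exact congrArg f (by decide)
    · have h1 := hfix z (Or.inr (Or.inl rfl)) (by decide) (by decide)
      have h2 := hfix t (Or.inl rfl) (by decide) (by decide)
      calc n * f (t * z) * n⁻¹ = (n * f t * n⁻¹) * (n * f z * n⁻¹) := by rw [map_mul]; group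
        _ = f (t * z) := by rw [h1, h2, map_mul]
  -- a Sylow subgroup in `C(c 0 0)` over `E`
  obtain ⟨g, hg⟩ := isConj_iff.mp ((hX0 0 ▸ hLc 0 0 : IsConj (f (c 0 0)) (f X)).symm)
  set C := centralizer ({f (c 0 0)} : Set G) with hC
  have hEC : E ≤ C := by
    rintro _ ⟨v, hv, rfl⟩
    refine mem_centralizer_singleton_iff.mpr ?_
    rw [← map_mul, ← map_mul]
    exact congrArg f ((by decide +kernel : ∀ v : D, chiFun 0 1 0 v = 0 → v * c 0 0 = c 0 0 * v) v (mem_ker.mp hv))
  have hgC : ((g • S : Sylow 2 G) : Subgroup G) ≤ C := by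
    rintro _ ⟨s, hs, rfl⟩
    refine mem_centralizer_singleton_iff.mpr ?_
    obtain ⟨v, rfl⟩ := emb_surj S e hs
    show g * f v * g⁻¹ * f (c 0 0) = f (c 0 0) * (g * f v * g⁻¹)
    rw [← hg]
    have hcomm : f v * f X = f X * f v := by rw [← map_mul, ← map_mul, cent X (hX.imp_right Or.inr) v]
    calc g * f v * g⁻¹ * (g * f X * g⁻¹) = g * (f v * f X) * g⁻¹ := by group
      _ = _ := by rw [hcomm]; group
  obtain ⟨Q, hQ⟩ := ((S.isPGroup'.to_le (fun x hx => by obtain ⟨v, -, rfl⟩ := hx; exact emb_mem S e v : E ≤ (S : Subgroup G))).comap_subtype (K := C)).exists_le_sylow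
  obtain ⟨h, hh⟩ := MulAction.exists_smul_eq ↥C ((g • S).subtype hgC) Q
  set g' := (h : G) * g with hg'
  have hg'X : g' * f X * g'⁻¹ = f (c 0 0) := by
    have := mem_centralizer_singleton_iff.mp h.2
    calc g' * f X * g'⁻¹ = (h : G) * (g * f X * g⁻¹) * (h : G)⁻¹ := by rw [hg']; group
      _ = _ := by rw [hg, this, mul_inv_cancel_right]
  have hER : E ≤ ((g' • S : Sylow 2 G) : Subgroup G) := by
    intro x hx
    have h1 : (⟨x, hEC hx⟩ : ↥C) ∈ (Q : Subgroup ↥C) := hQ hx
    rw [← hh] at h1
    obtain ⟨w, ⟨s, hs, hsw⟩, hwx⟩ := h1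
    refine ⟨s, hs, ?_⟩
    have e1 : g * s * g⁻¹ = (w : G) := hsw
    have e2 : (h : G) * (w : G) * (h : G)⁻¹ = x := congrArg Subtype.val hwx
    show g' * s * g'⁻¹ = x
    rw [← e2, ← e1, hg']; group
  have hR : ((g' • S : Sylow 2 G) : Subgroup G) ≤ normalizer (E : Set G) := by
    refine (normal_subgroupOf_iff_le_normalizer hER).mp (Subgroup.normal_of_index_eq_two ?_)
    have hcE : Nat.card ↥E * 2 = Nat.card S := by
      rw [← Nat.card_congr ((ker 0 1 0).equivMapOfInjective f (emb_inj S e)).toEquiv, Nat.card_congr e.toEquiv]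
      have : (ker 0 1 0).index = 2 := by
        rw [ker, index_ker]
        rw [show (MonoidHom.mk' (fun x => Multiplicative.ofAdd (chiFun 0 1 0 x)) fun x y => by
          rw [chiFun_mul, ofAdd_add]).range = (⊤ : Subgroup (Multiplicative (ZMod 2))) from eq_top_iff.mpr fun w _ => by
            rcases (by decide : ∀ w : Multiplicative (ZMod 2), w = 1 ∨ w = Multiplicative.ofAdd 1) w with rfl | rfl
            · exact one_mem _
            · exact ⟨(1, .r 1), by decide⟩, card_top, Nat.card_eq_fintype_card]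
        rfl
      have h2 := (ker 0 1 0).card_mul_index; rwa [this] at h2
    have := (E.subgroupOf ((g' • S : Sylow 2 G) : Subgroup G)).card_mul_index
    rw [Nat.card_congr (subgroupOfEquivOfLe hER).toEquiv, (g' • S).card_eq_multiplicity, ← S.card_eq_multiplicity, ← hcE] at this
    exact Nat.eq_of_mul_eq_mul_left Nat.card_pos this
  have hSN : (S : Subgroup G) ≤ normalizer (E : Set G) := by
    intro s hs
    obtain ⟨v, rfl⟩ := emb_surj S e hs
    refine mem_normalizer_iff.mpr fun x => ⟨?_, ?_⟩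
    · rintro ⟨w, hw, rfl⟩
      exact ⟨v * w * v⁻¹, mem_ker.mpr (by rw [chi_conj]; exact mem_ker.mp hw), by rw [map_mul, map_mul, map_inv]⟩
    · rintro ⟨w, hw, hwx⟩
      refine ⟨v⁻¹ * w * v, mem_ker.mpr ?_, ?_⟩
      · simpa using (chi_conj 0 1 0 w v⁻¹).trans (mem_ker.mp hw)
      · rw [map_mul, map_mul, map_inv, hwx, hf]; group
  obtain ⟨n, hn⟩ := MulAction.exists_smul_eq ↥(normalizer (E : Set G)) (S.subtype hSN) ((g' • S).subtype hR)
  have hm : (n : G)⁻¹ * g' ∈ normalizer ((S : Subgroup G) : Set G) := by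
    refine Sylow.smul_eq_iff_mem_normalizer.mp ?_
    rw [mul_smul, inv_smul_eq_iff]
    refine Sylow.ext (SetLike.ext fun x => ?_)
    constructor
    · intro hx
      have h1 : (⟨x, hR hx⟩ : ↥(normalizer (E : Set G))) ∈ ((g' • S).subtype hR : Subgroup _) := hx
      rw [← hn] at h1
      obtain ⟨w, hw, hwx⟩ := h1
      exact ⟨(w : G), hw, congrArg Subtype.val hwx⟩
    · rintro ⟨w, hw, rfl⟩
      have h1 : n * ⟨w, hSN hw⟩ * n⁻¹ ∈ ((n • S.subtype hSN : Sylow 2 _) : Subgroup _) :=
        ⟨⟨w, hSN hw⟩, hw, rfl⟩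
      rw [hn] at h1
      exact h1
  have h1 := normalizer_fix S e hm (cent X (hX.imp_right Or.inr))
  have h2 := hE8 n n.2
  have h3 : g' * f X * g'⁻¹ = f X := by
    calc g' * f X * g'⁻¹ = n * (((n : G)⁻¹ * g') * f X * ((n : G)⁻¹ * g')⁻¹) * (n : G)⁻¹ := by group
      _ = _ := by rw [h1, h2]
  exact absurd (emb_inj S e (hg'X.symm.trans h3)) (by rcases hX with rfl | rfl <;> decide)

end Cfsg.Agent.H74.TwoDih
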